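import Cfsg.Agent.Lib.H63.MTab

set_option autoImplicit false
set_option linter.all false
set_option maxRecDepth 10000

/-! The centralizer of a transvection in `SL(5, 2)`. -/

namespace H63.SL5

open Matrix H63.PC H63.OT H63.MTb H35.Net

abbrev SL := Matrix.SpecialLinearGroup (Fin 5) (ZMod 2)

theorem z2 : ∀ x : ZMod 2, x ≠ 0 → x = 1 := by decide

theorem entries {s M : SL} (hs : (s : Matrix (Fin 5) (Fin 5) (ZMod 2)) = transvection 0 1 1) (h : M * s = s * M) :
    (∀ i, i ≠ 0 → M.1 i 0 = 0) ∧ (∀ j, j ≠ 1 → M.1 1 j = 0) ∧ M.1 0 0 = 1 ∧ M.1 1 1 = 1 := by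
  have h1 : M.1 * s.1 = s.1 * M.1 := congrArg Subtype.val h
  have hs' : s.1 = 1 + Matrix.single 0 1 1 := hs
  rw [hs', mul_add, add_mul, mul_one, one_mul, add_right_inj] at h1
  have e : ∀ i j : Fin 5, (M.1 * Matrix.single (0 : Fin 5) (1 : Fin 5) (1 : ZMod 2) : Matrix (Fin 5) (Fin 5) (ZMod 2)) i j =
      (Matrix.single (0 : Fin 5) (1 : Fin 5) (1 : ZMod 2) * M.1 : Matrix (Fin 5) (Fin 5) (ZMod 2)) i j :=
    fun i j => by rw [h1]
  have a1 : ∀ i, i ≠ 0 → M.1 i 0 = 0 := by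
    intro i hi
    have h2 := e i 1
    rw [Matrix.mul_single_apply_same, Matrix.single_mul_apply_of_ne _ _ _ _ _ hi, mul_one] at h2
    exact h2
  have a2 : ∀ j, j ≠ 1 → M.1 1 j = 0 := by
    intro j hj
    have h2 := e 0 j
    rw [Matrix.mul_single_apply_of_ne _ _ _ _ _ hj, Matrix.single_mul_apply_same, one_mul] at h2
    exact h2.symm
  have a3 : M.1 0 0 = M.1 1 1 := by
    have h2 := e 0 1
    rw [Matrix.mul_single_apply_same, Matrix.single_mul_apply_same, one_mul, mul_one] at h2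
    exact h2
  have a4 : M.1 1 1 = 1 := by
    apply z2
    intro h0
    have h3 : M.1.det = 0 := Matrix.det_eq_zero_of_row_eq_zero 1 (fun j => by
      by_cases hj : j = 1
      · rw [hj]; exact h0
      · exact a2 j hj)
    rw [M.2] at h3
    exact absurd h3 (by decide)
  exact ⟨a1, a2, a3.trans a4, a4⟩

/-- the lower right block -/
def blk (M : Matrix (Fin 5) (Fin 5) (ZMod 2)) : Matrix (Fin 3) (Fin 3) (ZMod 2) :=
  fun i j => M (Fin.natAdd 2 i) (Fin.natAdd 2 j)

theorem blk_mul {M N : Matrix (Fin 5) (Fin 5) (ZMod 2)} (h0 : ∀ i, i ≠ 0 → M i 0 = 0) (h1 : ∀ j, j ≠ 1 → N 1 j = 0) :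
    blk (M * N) = blk M * blk N := by
  ext i j
  show (M * N) (Fin.natAdd 2 i) (Fin.natAdd 2 j) = (blk M * blk N) i j
  rw [Matrix.mul_apply, Matrix.mul_apply, Fin.sum_univ_five, Fin.sum_univ_three]
  have e1 : M (Fin.natAdd 2 i) 0 = 0 := h0 _ (by intro h; have := congrArg Fin.val h; simp at this)
  have e2 : N 1 (Fin.natAdd 2 j) = 0 := h1 _ (by intro h; have := congrArg Fin.val h; simp at this; omega)
  rw [e1, e2, zero_mul, mul_zero, zero_add, zero_add]
  rfl

theorem blk_one : blk 1 = 1 := by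
  ext i j
  fin_cases i <;> fin_cases j <;> rfl

theorem mul_inv1 (M : SL) : M.1 * (M⁻¹).1 = 1 := by
  rw [← Matrix.SpecialLinearGroup.coe_mul, mul_inv_cancel, Matrix.SpecialLinearGroup.coe_one]

theorem inv_mul1 (M : SL) : (M⁻¹).1 * M.1 = 1 := by
  rw [← Matrix.SpecialLinearGroup.coe_mul, inv_mul_cancel, Matrix.SpecialLinearGroup.coe_one]

theorem comm_inv {s M : SL} (h : M * s = s * M) : M⁻¹ * s = s * M⁻¹ := by
  rw [inv_mul_eq_iff_eq_mul, ← mul_assoc, h, mul_inv_cancel_right]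

theorem blk_unit {s M : SL} (hs : (s : Matrix (Fin 5) (Fin 5) (ZMod 2)) = transvection 0 1 1) (h : M * s = s * M) :
    blk M.1 * blk (M⁻¹).1 = 1 := by
  rw [← blk_mul (entries hs h).1 (entries hs (comm_inv h)).2.1, mul_inv1, blk_one]

theorem card_GL3 : Nat.card (GL (Fin 3) (ZMod 2)) = 168 := by
  rw [Matrix.card_GL_field, Fin.prod_univ_three, ZMod.card]
  norm_num

theorem card3 : Nat.card ((Fin 4 → ZMod 2) × (Fin 3 → ZMod 2) × GL (Fin 3) (ZMod 2)) = 21504 := by
  have h4 : Nat.card (Fin 4 → ZMod 2) = 16 := by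
    rw [Nat.card_eq_fintype_card, Fintype.card_fun, ZMod.card, Fintype.card_fin]; norm_num
  have h3 : Nat.card (Fin 3 → ZMod 2) = 8 := by
    rw [Nat.card_eq_fintype_card, Fintype.card_fun, ZMod.card, Fintype.card_fin]; norm_num
  rw [Nat.card_prod, Nat.card_prod, card_GL3, h4, h3]

/-- block as a unit -/
noncomputable def blkU (M : SL) : GL (Fin 3) (ZMod 2) :=
  if h : blk M.1 * blk (M⁻¹).1 = 1 then ⟨blk M.1, blk (M⁻¹).1, h, mul_eq_one_comm.mp h⟩ else 1

theorem blkU_val {M : SL} (h : blk M.1 * blk (M⁻¹).1 = 1) : (blkU M : Matrix (Fin 3) (Fin 3) (ZMod 2)) = blk M.1 := by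
  unfold blkU
  rw [dif_pos h]

/-- the coordinates -/
noncomputable def crd (M : SL) : (Fin 4 → ZMod 2) × (Fin 3 → ZMod 2) × GL (Fin 3) (ZMod 2) :=
  (fun j => M.1 0 j.succ, fun i => M.1 (Fin.natAdd 2 i) 1, blkU M)

theorem crd_inj {s M N : SL} (hs : (s : Matrix (Fin 5) (Fin 5) (ZMod 2)) = transvection 0 1 1)
    (hM : M * s = s * M) (hN : N * s = s * N) (h : crd M = crd N) : M = N := by
  unfold crd at h
  rw [Prod.mk.injEq, Prod.mk.injEq] at h
  obtain ⟨h1, h2, h3⟩ := h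
  have h3' : blk M.1 = blk N.1 := by
    rw [← blkU_val (blk_unit hs hM), ← blkU_val (blk_unit hs hN), h3]
  have b : ∀ i j : Fin 3, M.1 (Fin.natAdd 2 i) (Fin.natAdd 2 j) = N.1 (Fin.natAdd 2 i) (Fin.natAdd 2 j) :=
    fun i j => by
      have h5 : blk M.1 i j = blk N.1 i j := by rw [h3']
      exact h5
  have a : ∀ j : Fin 4, M.1 0 j.succ = N.1 0 j.succ := fun j => congrFun h1 j
  have c : ∀ i : Fin 3, M.1 (Fin.natAdd 2 i) 1 = N.1 (Fin.natAdd 2 i) 1 := fun i => congrFun h2 i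
  have eM := entries hs hM
  have eN := entries hs hN
  apply Subtype.ext
  ext i j
  fin_cases i
  · fin_cases j
    · exact eM.2.2.1.trans eN.2.2.1.symm
    · exact a 0
    · exact a 1
    · exact a 2
    · exact a 3
  · by_cases hj : j = 1
    · rw [hj]; exact eM.2.2.2.trans eN.2.2.2.symm
    · exact (eM.2.1 j hj).trans (eN.2.1 j hj).symm
  · fin_cases j
    · exact (eM.1 2 (by decide)).trans (eN.1 2 (by decide)).symm
    · exact c 0
    · exact b 0 0
    · exact b 0 1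
    · exact b 0 2
  · fin_cases j
    · exact (eM.1 3 (by decide)).trans (eN.1 3 (by decide)).symm
    · exact c 1
    · exact b 1 0
    · exact b 1 1
    · exact b 1 2
  · fin_cases j
    · exact (eM.1 4 (by decide)).trans (eN.1 4 (by decide)).symm
    · exact c 2
    · exact b 2 0
    · exact b 2 1
    · exact b 2 2

theorem card_le {s : SL} (hs : (s : Matrix (Fin 5) (Fin 5) (ZMod 2)) = transvection 0 1 1) :
    Nat.card (Subgroup.centralizer ({s} : Set SL)) ≤ 21504 := by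
  rw [← card3]
  refine Nat.card_le_card_of_injective (fun M : Subgroup.centralizer ({s} : Set SL) => crd M.1) ?_
  intro M N h
  exact Subtype.ext (crd_inj hs (Subgroup.mem_centralizer_singleton_iff.mp M.2)
    (Subgroup.mem_centralizer_singleton_iff.mp N.2) h)

/-- coding of vectors -/
def enc (v : Fin 5 → ZMod 2) : Fin 32 :=
  ⟨(v 0).val + 2 * (v 1).val + 4 * (v 2).val + 8 * (v 3).val + 16 * (v 4).val, by
    have h0 := ZMod.val_lt (v 0); have h1 := ZMod.val_lt (v 1); have h2 := ZMod.val_lt (v 2)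
    have h3 := ZMod.val_lt (v 3); have h4 := ZMod.val_lt (v 4); omega⟩

/-- decoding -/
def dec (k : Fin 32) : Fin 5 → ZMod 2 := fun i => if (k : ℕ).testBit i then 1 else 0

theorem enc_dec : ∀ k, enc (dec k) = k := by decide +kernel

theorem dec_enc : ∀ v, dec (enc v) = v := by decide +kernel

theorem act_inv (M : SL) (k : Fin 32) : enc ((M⁻¹).1 *ᵥ dec (enc (M.1 *ᵥ dec k))) = k := by
  rw [dec_enc, Matrix.mulVec_mulVec, inv_mul1, Matrix.one_mulVec, enc_dec]

theorem act_inv' (M : SL) (k : Fin 32) : enc (M.1 *ᵥ dec (enc ((M⁻¹).1 *ᵥ dec k))) = k := by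
  rw [dec_enc, Matrix.mulVec_mulVec, mul_inv1, Matrix.one_mulVec, enc_dec]

/-- the action on the codes -/
def rho : SL →* Equiv.Perm (Fin 32) where
  toFun M := ⟨fun k => enc (M.1 *ᵥ dec k), fun k => enc ((M⁻¹).1 *ᵥ dec k), act_inv M, act_inv' M⟩
  map_one' := by
    ext1 k
    show enc ((1 : Matrix (Fin 5) (Fin 5) (ZMod 2)) *ᵥ dec k) = k
    rw [Matrix.one_mulVec, enc_dec]
  map_mul' M N := by
    ext1 k
    show enc ((M.1 * N.1) *ᵥ dec k) = enc (M.1 *ᵥ dec (enc (N.1 *ᵥ dec k)))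
    rw [dec_enc, Matrix.mulVec_mulVec]

theorem rho_apply (M : SL) (k : Fin 32) : rho M k = enc (M.1 *ᵥ dec k) := rfl

/-- the first generator -/
def Ma : SL := ⟨!![1,1,0,1,0; 0,1,0,0,0; 0,1,1,0,0; 0,0,0,1,0; 0,0,0,0,1], by decide +kernel⟩
/-- the second generator -/
def Mb : SL := ⟨!![1,0,1,1,0; 0,1,0,0,0; 0,1,0,1,0; 0,1,1,0,0; 0,1,1,1,1], by decide +kernel⟩
/-- the third generator -/
def Mk : SL := ⟨!![1,0,1,1,1; 0,1,0,0,0; 0,0,1,0,0; 0,1,1,0,1; 0,0,0,1,0], by decide +kernel⟩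

theorem enc_bit : ∀ v : Fin 5 → ZMod 2, (enc v : ℕ).testBit 1 = decide (v 1 = 1) := by decide +kernel

theorem bit1 {s M : SL} (hs : (s : Matrix (Fin 5) (Fin 5) (ZMod 2)) = transvection 0 1 1) (h : M * s = s * M)
    (k : Fin 32) : (rho M k : ℕ).testBit 1 = (k : ℕ).testBit 1 := by
  have e := entries hs h
  have h1 : (M.1 *ᵥ dec k) 1 = dec k 1 := by
    rw [Matrix.mulVec, dotProduct, Fin.sum_univ_five, e.2.1 0 (by decide), e.2.1 2 (by decide), e.2.1 3 (by decide),
      e.2.1 4 (by decide), e.2.2.2]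
    ring
  rw [rho_apply, enc_bit, h1, ← enc_bit, enc_dec]

theorem faithful {M : SL} (h : ∀ k : Fin 32, (k : ℕ).testBit 1 = true → rho M k = k) : M = 1 := by
  have h1 : ∀ v : Fin 5 → ZMod 2, v 1 = 1 → M.1 *ᵥ v = v := by
    intro v hv
    have h2 := h (enc v) (by rw [enc_bit]; exact decide_eq_true hv)
    rw [rho_apply, dec_enc] at h2
    have h3 := congrArg dec h2
    rwa [dec_enc, dec_enc] at h3
  have h2 : M.1 *ᵥ Pi.single 1 1 = Pi.single 1 1 := h1 _ (by simp)
  have h3 : ∀ j : Fin 5, M.1 *ᵥ Pi.single j 1 = Pi.single j 1 := by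
    intro j
    by_cases hj : j = 1
    · rw [hj]; exact h2
    · have h4 := h1 (Pi.single 1 1 + Pi.single j 1) (by
        rw [Pi.add_apply, Pi.single_eq_same, Pi.single_eq_of_ne (Ne.symm hj), add_zero])
      rw [Matrix.mulVec_add, h2] at h4
      exact add_left_cancel h4
  apply Subtype.ext
  show M.1 = 1
  ext i j
  have h4 := congrFun (h3 j) i
  rw [Matrix.mulVec_single_one] at h4
  rw [Matrix.one_apply]
  have h5 : M.1 i j = (Pi.single j 1 : Fin 5 → ZMod 2) i := h4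
  rw [h5, Pi.single_apply]

/-- letters -/
inductive L3 | a | b | k

/-- matrices of the letters -/
def mt3 : L3 → SL
  | .a => Ma
  | .b => Mb
  | .k => Mk

def t3a : ℕ := 0x1b01a01c01d01f01e01801901201301501401601701101000b00a00c00d00f00e008009002003005004006007001000
def t3b : ℕ := 0x300201d01c01a01b00400501601700800900f00e01101001301200d00c00a00b01401500600701801901f01e001000
def t3k : ℕ := 0x1e01f01401501301201901800f00e00500400200300800901701601d01c01a01b01001100600700c00d00b00a001000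

/-- tables -/
def T3 : L3 → ℕ
  | .a => t3a
  | .b => t3b
  | .k => t3k

theorem r3a : ∀ i : Fin 32, a12 t3a i = (rho Ma i : ℕ) := by decide +kernel
theorem r3b : ∀ i : Fin 32, a12 t3b i = (rho Mb i : ℕ) := by decide +kernel
theorem r3k : ∀ i : Fin 32, a12 t3k i = (rho Mk i : ℕ) := by decide +kernel

theorem r3 (a : L3) : Rp 32 (T3 a) (rho (mt3 a)) := by
  cases a
  · exact r3a
  · exact r3b
  · exact r3k

set_option maxRecDepth 100000 in
theorem f0 : fixW T3 ([[.k, .b, .a], [.a]]) [] = true := by decide +kernel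
set_option maxRecDepth 100000 in
theorem c0 : Nat.ble 16 (cntM (reachW T3 ([[.k, .b, .a], [.a]]) 32 12 (Nat.shiftLeft 1 2)) 32) = true := by decide +kernel
set_option maxRecDepth 100000 in
theorem f1 : fixW T3 ([[.a, .k, .b, .a], [.b, .a, .k, .b, .k]]) [2] = true := by decide +kernel
set_option maxRecDepth 100000 in
theorem c1 : Nat.ble 14 (cntM (reachW T3 ([[.a, .k, .b, .a], [.b, .a, .k, .b, .k]]) 32 12 (Nat.shiftLeft 1 4)) 32) = true := by decide +kernel
set_option maxRecDepth 100000 in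
theorem f2 : fixW T3 ([[.k, .k, .b, .k, .k, .b, .k, .b], [.k, .a, .k, .b, .a, .k, .a, .b, .k]]) [4, 2] = true := by decide +kernel
set_option maxRecDepth 100000 in
theorem c2 : Nat.ble 12 (cntM (reachW T3 ([[.k, .k, .b, .k, .k, .b, .k, .b], [.k, .a, .k, .b, .a, .k, .a, .b, .k]]) 32 12 (Nat.shiftLeft 1 8)) 32) = true := by decide +kernel
set_option maxRecDepth 100000 in
theorem f3 : fixW T3 ([[.k, .b, .k, .k, .b, .k, .k, .k], [.k, .a, .k, .a, .k, .a, .b, .k, .a], [.k, .k, .b, .k, .b, .k, .b, .k, .k, .b]]) [8, 4, 2] = true := by decide +kernel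
set_option maxRecDepth 100000 in
theorem c3 : Nat.ble 8 (cntM (reachW T3 ([[.k, .b, .k, .k, .b, .k, .k, .k], [.k, .a, .k, .a, .k, .a, .b, .k, .a], [.k, .k, .b, .k, .b, .k, .b, .k, .k, .b]]) 32 12 (Nat.shiftLeft 1 16)) 32) = true := by decide +kernel

theorem low (K : Subgroup SL) (h : ∀ a, mt3 a ∈ K) : 21504 ≤ Nat.card K := by
  have hw : ∀ (ws : List (List L3)), ∀ w ∈ ws, (w.map fun a => rho (mt3 a)).prod ∈ K.map rho := by
    intro ws w _
    apply Subgroup.list_prod_mem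
    intro x hx
    obtain ⟨a, -, rfl⟩ := List.mem_map.mp hx
    exact ⟨_, h a, rfl⟩
  have h4 : 1 ≤ Nat.card (K.map rho ⊓ Fx 32 [16, 8, 4, 2] : Subgroup (Equiv.Perm (Fin 32))) := Nat.card_pos
  have h3 := level_low (l := [8, 4, 2]) r3 (hw _) f3 (by norm_num) c3 h4
  have h2 := level_low (l := [4, 2]) r3 (hw _) f2 (by norm_num) c2 h3
  have h1 := level_low (l := [2]) r3 (hw _) f1 (by norm_num) c1 h2
  have h0 := level_low (l := []) r3 (hw _) f0 (by norm_num) c0 h1
  have hle : Nat.card (K.map rho ⊓ Fx 32 [] : Subgroup (Equiv.Perm (Fin 32))) ≤ Nat.card (K.map rho) :=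
    Subgroup.card_le_of_le inf_le_left
  have h5 : Nat.card (K.map rho) ≤ Nat.card K :=
    Nat.card_le_card_of_surjective (fun x : K => (⟨rho x, x, x.2, rfl⟩ : K.map rho)) (by
      rintro ⟨_, x, hx, rfl⟩
      exact ⟨⟨x, hx⟩, rfl⟩)
  omega

theorem comm3 {s : SL} (hs : (s : Matrix (Fin 5) (Fin 5) (ZMod 2)) = transvection 0 1 1) (a : L3) :
    mt3 a ∈ Subgroup.centralizer ({s} : Set SL) := by
  have hs' : s = ⟨transvection 0 1 1, by decide +kernel⟩ := Subtype.ext hs
  rw [Subgroup.mem_centralizer_singleton_iff, hs']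
  cases a <;> (apply Subtype.ext; decide +kernel)

end H63.SL5
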