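import Cfsg.Agent.Lib.H63.HeCent
import Cfsg.Agent.Lib.H63.SL5Cent

set_option autoImplicit false
set_option linter.all false
set_option maxRecDepth 10000
set_option Elab.async false

/-! The centralizer of a `2B`-involution of the Held group and the centralizer of a transvection of `SL(5, 2)`. -/

namespace H63.HeC
open H63.PC H63.OT H63.MTb H63.ZT H35.Net H63.OutHe H35.HeMain H63.SL5

/-- the word of the third generator -/
def wk : List LA := [.d, .g, .b, .d, .c, .d, .c, .f, .b, .d, .e, .d, .b, .f, .c, .d, .c, .d, .b, .g, .d, .e, .d, .g, .b, .d, .c, .d, .c, .f, .b, .d]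

/-- the third generator -/
noncomputable def kH : Cfsg.Spor.He := (wk.map gP).prod

set_option maxRecDepth 100000 in
theorem cw_k : chkWord 2058 tk TL wk = true := by decide +kernel

theorem r_k : Rp 2058 tk (ψ kH) := by
  have h := Rp_word rl cw_k
  rw [kH, map_list_prod, List.map_map]
  exact h

/-- the generators -/
noncomputable def hh : L3 → Cfsg.Spor.He
  | .a => gP .a
  | .b => gP .b
  | .k => kH

/-- tables -/
def TH3 : L3 → ℕ
  | .a => tb_a
  | .b => tb_b
  | .k => tk

theorem rh (a : L3) : Rp 2058 (TH3 a) (ψ (hh a)) := by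
  cases a
  · exact rl .a
  · exact rl .b
  · exact r_k

/-- commutation check -/
noncomputable def cmChk (T : ℕ) : Bool := allN (fun i => Nat.beq (a12 T (a12 tb_e i)) (a12 tb_e (a12 T i))) 2058

set_option maxRecDepth 100000 in
theorem cm_a : cmChk tb_a = true := by decide +kernel
set_option maxRecDepth 100000 in
theorem cm_b : cmChk tb_b = true := by decide +kernel
set_option maxRecDepth 100000 in
theorem cm_k : cmChk tk = true := by decide +kernel

theorem cm_of {T : ℕ} {h : Cfsg.Spor.He} (hr : Rp 2058 T (ψ h)) (hc : cmChk T = true) : h ∈ Ce := by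
  rw [Subgroup.mem_centralizer_singleton_iff]
  apply ψ_inj
  rw [map_mul, map_mul]
  ext i
  have h1 := Nat.eq_of_beq_eq_true (allN_sound hc i i.2)
  rw [hzt i, hr, hr i, hzt] at h1
  exact h1

theorem hh_mem (a : L3) : hh a ∈ Ce := by
  cases a
  · exact cm_of (rl .a) cm_a
  · exact cm_of (rl .b) cm_b
  · exact cm_of r_k cm_k

/-- the partial maps -/
noncomputable def Fn (k : Fin 32) (p : Fin 2058) : Fin 2058 :=
  ⟨Nat.mod (a12 (FT.get k) p) 2058, Nat.mod_lt _ (by norm_num)⟩

/-- the equivariance -/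
def Eq1 (h : Cfsg.Spor.He) (M : SL) : Prop :=
  ∀ k : Fin 32, (k : ℕ).testBit 1 = true → ∀ p : Fin 2058, OM.testBit p = true →
    OM.testBit (ψ h p) = true ∧ ψ h (Fn k p) = Fn (rho M k) (ψ h p)

/-- check of the equivariance -/
noncomputable def chkE (Th Mc : ℕ) : Bool :=
  allN (fun k => Bool.rec (motive := fun _ => Bool) true
    (force (FT.get k) fun A => force (FT.get (a12 Mc k)) fun B =>
      allN (fun p => Bool.rec (motive := fun _ => Bool) true
        (band (Nat.beq (bt OM (a12 Th p)) 1)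
          (Nat.beq (a12 Th (Nat.mod (a12 A p) 2058)) (Nat.mod (a12 B (a12 Th p)) 2058)))
        (Nat.beq (bt OM p) 1)) 2058) (Nat.beq (bt k 1) 1)) 32

set_option maxRecDepth 100000 in
theorem ce_a : chkE tb_a t3a = true := by decide +kernel
set_option maxRecDepth 100000 in
theorem ce_b : chkE tb_b t3b = true := by decide +kernel
set_option maxRecDepth 100000 in
theorem ce_k : chkE tk t3k = true := by decide +kernel

theorem eq_of {T Mc : ℕ} {h : Cfsg.Spor.He} {M : SL} (hr : Rp 2058 T (ψ h)) (hm : Rp 32 Mc (rho M))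
    (hc : chkE T Mc = true) : Eq1 h M := by
  intro k hk p hp
  have h1 := allN_sound hc k k.2
  have hk' : Nat.beq (bt k 1) 1 = true := by rw [bt_one.mpr hk]; rfl
  have hp' : Nat.beq (bt OM p) 1 = true := by rw [bt_one.mpr hp]; rfl
  rw [hk'] at h1
  simp only [force_eq] at h1
  have h2 := allN_sound h1 p p.2
  rw [hp'] at h2
  have h3 : band (Nat.beq (bt OM (a12 T p)) 1)
          (Nat.beq (a12 T (Nat.mod (a12 (FT.get k) p) 2058)) (Nat.mod (a12 (FT.get (a12 Mc k)) (a12 T p)) 2058)) = true := h2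
  rw [band_iff] at h3
  obtain ⟨h4, h5⟩ := h3
  have h4 := bt_one.mp (Nat.eq_of_beq_eq_true h4)
  have h5 := Nat.eq_of_beq_eq_true h5
  rw [hr p] at h4 h5
  rw [hm k] at h5
  refine ⟨h4, Fin.ext ?_⟩
  have h6 : a12 T (Fn k p) = (ψ h (Fn k p) : ℕ) := hr (Fn k p)
  rw [← h6]
  exact h5

theorem hh_eq (a : L3) : Eq1 (hh a) (mt3 a) := by
  cases a
  · exact eq_of (rl .a) r3a ce_a
  · exact eq_of (rl .b) r3b ce_b
  · exact eq_of r_k r3k ce_k

/-- the partial maps are different -/
noncomputable def dChk : Bool :=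
  allN (fun k => Bool.rec (motive := fun _ => Bool) true (allN (fun k' =>
    Bool.rec (motive := fun _ => Bool) true (Bool.rec (motive := fun _ => Bool)
      (force (FT.get k) fun A => force (FT.get k') fun B => Bool.not (allN (fun p =>
        Bool.rec (motive := fun _ => Bool) true (Nat.beq (Nat.mod (a12 A p) 2058) (Nat.mod (a12 B p) 2058))
          (Nat.beq (bt OM p) 1)) 2058)) true (Nat.beq k k')) (Nat.beq (bt k' 1) 1)) 32) (Nat.beq (bt k 1) 1)) 32

set_option maxRecDepth 100000 in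
theorem d_ok : dChk = true := by decide +kernel

theorem dist {k k' : Fin 32} (hk : (k : ℕ).testBit 1 = true) (hk' : (k' : ℕ).testBit 1 = true)
    (h : ∀ p : Fin 2058, OM.testBit p = true → Fn k p = Fn k' p) : k = k' := by
  have h1 := allN_sound d_ok k k.2
  have e1 : Nat.beq (bt k 1) 1 = true := by rw [bt_one.mpr hk]; rfl
  have e2 : Nat.beq (bt k' 1) 1 = true := by rw [bt_one.mpr hk']; rfl
  rw [e1] at h1
  have h2 := allN_sound h1 k' k'.2
  rw [e2] at h2
  cases hb : Nat.beq (k : ℕ) k' with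
  | true => exact Fin.ext (Nat.eq_of_beq_eq_true hb)
  | false =>
    exfalso
    rw [hb] at h2
    simp only [force_eq] at h2
    have h3 : allN (fun p => Bool.rec (motive := fun _ => Bool) true
        (Nat.beq (Nat.mod (a12 (FT.get k) p) 2058) (Nat.mod (a12 (FT.get k') p) 2058))
          (Nat.beq (bt OM p) 1)) 2058 = true := by
      apply allN_complete
      intro p hp
      cases hc : Nat.beq (bt OM p) 1 with
      | false => rfl
      | true =>
        have h4 := h ⟨p, hp⟩ (bt_one.mp (Nat.eq_of_beq_eq_true hc))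
        have h5 : Nat.mod (a12 (FT.get k) p) 2058 = Nat.mod (a12 (FT.get k') p) 2058 := congrArg Fin.val h4
        show Nat.beq (Nat.mod (a12 (FT.get k) p) 2058) (Nat.mod (a12 (FT.get k') p) 2058) = true
        rw [h5]
        exact Nat.beq_refl _
    rw [h3] at h2
    exact absurd h2 (by decide)

theorem finHe : Finite Cfsg.Spor.He := Nat.finite_of_card_ne_zero (by rw [card_inj.1]; norm_num)

section
variable {s : SL} (hs : (s : Matrix (Fin 5) (Fin 5) (ZMod 2)) = Matrix.transvection 0 1 1)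
include hs

theorem Eq1.mul {h1 h2 : Cfsg.Spor.He} {M1 M2 : SL} (e1 : Eq1 h1 M1) (e2 : Eq1 h2 M2) (hM : M2 * s = s * M2) :
    Eq1 (h1 * h2) (M1 * M2) := by
  intro k hk p hp
  obtain ⟨a1, a2⟩ := e2 k hk p hp
  obtain ⟨b1, b2⟩ := e1 (rho M2 k) (by rw [bit1 hs hM]; exact hk) (ψ h2 p) a1
  rw [map_mul, map_mul]
  refine ⟨b1, ?_⟩
  show ψ h1 (ψ h2 (Fn k p)) = Fn (rho M1 (rho M2 k)) (ψ h1 (ψ h2 p))
  rw [a2, b2]

/-- the carrier -/
def inK (s : SL) (x : Cfsg.Spor.He × SL) : Prop := x.1 ∈ Ce ∧ x.2 ∈ Subgroup.centralizer ({s} : Set SL) ∧ Eq1 x.1 x.2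

omit hs in
theorem inK_one : inK s 1 := ⟨one_mem _, one_mem _, fun k _ p hp => by
  show OM.testBit (ψ 1 p) = true ∧ ψ 1 (Fn k p) = Fn (rho 1 k) (ψ 1 p)
  rw [map_one, map_one]
  exact ⟨hp, rfl⟩⟩

theorem inK_mul {x y : Cfsg.Spor.He × SL} (hx : inK s x) (hy : inK s y) : inK s (x * y) :=
  ⟨mul_mem hx.1 hy.1, mul_mem hx.2.1 hy.2.1,
    Eq1.mul hs hx.2.2 hy.2.2 (Subgroup.mem_centralizer_singleton_iff.mp hy.2.1)⟩

theorem inK_pow {x : Cfsg.Spor.He × SL} (hx : inK s x) (m : ℕ) : inK s (x ^ m) := by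
  induction m with
  | zero => rw [pow_zero]; exact inK_one
  | succ m ih => rw [pow_succ]; exact inK_mul hs ih hx

theorem inK_inv {x : Cfsg.Spor.He × SL} (hx : inK s x) : inK s x⁻¹ := by
  haveI := finHe
  have h1 : x⁻¹ = x ^ (orderOf x - 1) := by
    symm
    apply eq_inv_of_mul_eq_one_right
    rw [← pow_succ']
    have h2 : orderOf x - 1 + 1 = orderOf x := by
      have := orderOf_pos x
      omega
    rw [h2]; exact pow_orderOf_eq_one x
  rw [h1]
  exact inK_pow hs hx _

/-- the graph -/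
def KK : Subgroup (Cfsg.Spor.He × SL) where
  carrier := {x | inK s x}
  one_mem' := inK_one
  mul_mem' := fun hx hy => inK_mul hs hx hy
  inv_mem' := fun hx => inK_inv hs hx

theorem main : Nonempty (Ce ≃* Subgroup.centralizer ({s} : Set SL)) := by
  haveI := finHe
  set C := Subgroup.centralizer ({s} : Set SL) with hC
  let f1 : KK hs →* Ce := ((MonoidHom.fst Cfsg.Spor.He SL).comp (KK hs).subtype).codRestrict Ce (fun x => x.2.1)
  let f2 : KK hs →* C := ((MonoidHom.snd Cfsg.Spor.He SL).comp (KK hs).subtype).codRestrict C (fun x => x.2.2.1)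
  have hf1 : Function.Injective f1 := by
    rw [injective_iff_map_eq_one]
    rintro ⟨⟨h, M⟩, hx⟩ h1
    have h2 : h = 1 := congrArg Subtype.val h1
    subst h2
    have hE : Eq1 1 M := hx.2.2
    have hM : M * s = s * M := Subgroup.mem_centralizer_singleton_iff.mp hx.2.1
    have h3 : M = 1 := by
      apply faithful
      intro k hk
      apply dist (by rw [bit1 hs hM]; exact hk) hk
      intro p hp
      have h4 := (hE k hk p hp).2
      rw [map_one] at h4
      exact h4.symm
    subst h3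
    rfl
  have hlow : 21504 ≤ Nat.card ((KK hs).map (MonoidHom.snd Cfsg.Spor.He SL)) :=
    low _ fun a => ⟨(hh a, mt3 a), ⟨hh_mem a, comm3 hs a, hh_eq a⟩, rfl⟩
  have hCle : Nat.card C ≤ 21504 := card_le hs
  have hle : (KK hs).map (MonoidHom.snd Cfsg.Spor.He SL) ≤ C := by
    rintro _ ⟨x, hx, rfl⟩
    exact hx.2.1
  have heq : (KK hs).map (MonoidHom.snd Cfsg.Spor.He SL) = C :=
    Subgroup.eq_of_le_of_card_ge hle (hCle.trans hlow)
  have hf2 : Function.Surjective f2 := by
    rintro ⟨M, hM⟩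
    rw [← heq] at hM
    obtain ⟨x, hx, h1⟩ := hM
    exact ⟨⟨x, hx⟩, Subtype.ext h1⟩
  have hK1 : Nat.card (KK hs) ≤ Nat.card Ce := Nat.card_le_card_of_injective f1 hf1
  have hK2 : Nat.card C ≤ Nat.card (KK hs) := Nat.card_le_card_of_surjective f2 hf2
  have hC3 : 21504 ≤ Nat.card C := by rw [← heq]; exact hlow
  have hCe := card_Ce_le
  have e1 : Function.Bijective f1 := (Nat.bijective_iff_injective_and_card f1).2 ⟨hf1, by omega⟩
  have e2 : Function.Bijective f2 := (Nat.bijective_iff_surjective_and_card f2).2 ⟨hf2, by omega⟩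
  exact ⟨(MulEquiv.ofBijective f1 e1).symm.trans (MulEquiv.ofBijective f2 e2)⟩

end

theorem e_sq : gP .e * gP .e = 1 := by
  have h := hpP .e .e
  have h2 : (gP .e * gP .e) ^ 1 = 1 := h
  rwa [pow_one] at h2

theorem e_ne : gP .e ≠ 1 := by
  intro h
  have h1 := hzt (6 : Fin 2058)
  rw [h, map_one] at h1
  have h2 : Nat.beq (a12 tb_e 6) 7 = true := q1
  have h3 := Nat.eq_of_beq_eq_true h2
  have h4 : a12 tb_e ((6 : Fin 2058) : ℕ) = 6 := h1
  have h5 : ((6 : Fin 2058) : ℕ) = 6 := rfl
  rw [h5, h3] at h4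
  exact absurd h4 (by decide)

theorem e_ord : orderOf (gP .e) = 2 := orderOf_eq_prime (by rw [pow_two]; exact e_sq) e_ne

end H63.HeC
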