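import Cfsg.Agent.Lib.H63.J2Aut
import Cfsg.Agent.Lib.H57.FusSimple
import Cfsg.Agent.Lib.H65.PBasic

/-!
# Simplicity of the 2-fusion system of the Hall-Janko group
-/

set_option autoImplicit false
set_option linter.all false
set_option maxRecDepth 10000

namespace H63.J2

open Quaternion Cfsg Cfsg.Spor H63.PC H63.Ico H63.JT H57.FusSimple

/-- first involution -/
def pa : Equiv.Perm (Fin 5) := ⟨![1,0,2,4,3], ![1,0,2,4,3], by decide, by decide⟩
/-- second involution -/
def pb : Equiv.Perm (Fin 5) := ⟨![4,3,2,1,0], ![4,3,2,1,0], by decide, by decide⟩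

/-- Klein four group in `A5` -/
def V4 : Subgroup (Equiv.Perm (Fin 5)) where
  carrier := {σ | σ = 1 ∨ σ = pa ∨ σ = pb ∨ σ = pa * pb}
  one_mem' := Or.inl rfl
  mul_mem' := by
    rintro a b (rfl | rfl | rfl | rfl) (rfl | rfl | rfl | rfl) <;>
      simp only [Set.mem_setOf_eq] <;> decide
  inv_mem' := by
    rintro a (rfl | rfl | rfl | rfl) <;> simp only [Set.mem_setOf_eq] <;> decide

theorem mem_V4 {σ : Equiv.Perm (Fin 5)} : σ ∈ V4 ↔ σ = 1 ∨ σ = pa ∨ σ = pb ∨ σ = pa * pb := Iff.rfl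

instance : DecidablePred (· ∈ V4) := fun σ => decidable_of_iff _ (mem_V4 (σ := σ)).symm

theorem card_V4 : Nat.card V4 = 4 := by
  rw [Nat.card_eq_fintype_card]; decide +kernel

theorem V4_le : V4 ≤ alternatingGroup (Fin 5) := by
  rintro σ (rfl | rfl | rfl | rfl) <;> rw [Equiv.Perm.mem_alternatingGroup] <;> decide

/-- The preimage of the four group. -/
noncomputable def VC : Subgroup H2 := V4.comap psi

theorem card_VC : Nat.card VC = 128 := by
  have h1 := VC.card_mul_index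
  have h2 : VC.index = V4.relIndex psi.range := Subgroup.index_comap V4 psi
  have h3 : V4.relIndex (alternatingGroup (Fin 5)) = 15 := by
    have h4 : Nat.card V4 * V4.relIndex (alternatingGroup (Fin 5)) = Nat.card (alternatingGroup (Fin 5)) := by
      rw [← Subgroup.card_mul_index (V4.subgroupOf (alternatingGroup (Fin 5))),
        Nat.card_congr (Subgroup.subgroupOfEquivOfLe V4_le).toEquiv]
      rfl
    have hA : Nat.card (alternatingGroup (Fin 5)) = 60 := by
      rw [Nat.card_eq_fintype_card]; decide +kernel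
    rw [card_V4, hA] at h4
    omega
  rw [h2, psi_range, h3, card_H2] at h1
  omega

/-- The Sylow subgroup. -/
noncomputable def SP : Subgroup P0 := VC.map (Subgroup.inclusion ok.h2P)

theorem card_SP : Nat.card SP = 128 := by
  rw [← card_VC]
  exact Nat.card_congr (VC.equivMapOfInjective _ (Subgroup.inclusion_injective ok.h2P)).symm.toEquiv

theorem mem_SP {g : P0} : g ∈ SP ↔ ∃ h : (g : Equiv.Perm (Fin 315)) ∈ H2, psi ⟨g, h⟩ ∈ V4 := by
  constructor
  · rintro ⟨⟨x, hx⟩, hx2, rfl⟩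
    exact ⟨hx, hx2⟩
  · rintro ⟨h, h2⟩
    exact ⟨⟨g, h⟩, h2, rfl⟩

theorem E_le_SP {g : P0} (h : (g : Equiv.Perm (Fin 315)) ∈ E) : g ∈ SP := by
  refine mem_SP.2 ⟨E_le h, ?_⟩
  have : (⟨(g : Equiv.Perm (Fin 315)), E_le h⟩ : H2) ∈ psi.ker := by
    rw [← ker_eq_E]; exact h
  rw [MonoidHom.mem_ker.1 this]
  exact V4.one_mem

set_option maxRecDepth 100000 in
theorem gens_link : fullT.get 19 = tabE.get 1 ∧ fullT.get 20 = tabE.get 2 ∧ fullT.get 23 = tabE.get 3 ∧
    fullT.get 2 = tabE.get 4 := by decide +kernel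

theorem zPE : ∀ s < 4, ∃ j : Fin 315, Rep 315 (tabE.get (Nat.succ s)) ((zP j : P0) : Equiv.Perm (Fin 315)) := by
  obtain ⟨h0, h1, h2, h3⟩ := gens_link
  intro s hs
  interval_cases s
  · exact ⟨19, by have := rep_zP 19; rwa [show ((19 : Fin 315) : ℕ) = 19 from rfl, h0] at this⟩
  · exact ⟨20, by have := rep_zP 20; rwa [show ((20 : Fin 315) : ℕ) = 20 from rfl, h1] at this⟩
  · exact ⟨23, by have := rep_zP 23; rwa [show ((23 : Fin 315) : ℕ) = 23 from rfl, h2] at this⟩
  · exact ⟨2, by have := rep_zP 2; rwa [show ((2 : Fin 315) : ℕ) = 2 from rfl, h3] at this⟩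

/-- the images -/
noncomputable def fl (a b j : ℕ) : ℕ := ap (fullT.get a) (ap (fullT.get b) j)

/-- frame permutation of a product of two involutions -/
noncomputable def frChk2 (j k P : ℕ) : Bool :=
  band (Nat.beq (fl j k 0) 0) (allN (fun x => Bool.rec (motive := fun _ => Bool) true
    (Nat.beq (frm.get (fl j k x)) (pt P (frm.get x))) (Nat.blt (frm.get x) 5)) 315)

/-- packed permutations -/
def Pat : Nat := 1 + 8 * 0 + 64 * 2 + 512 * 4 + 4096 * 3 + 32768 * 5
/-- packed permutations -/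
def Pbt : Nat := 4 + 8 * 3 + 64 * 2 + 512 * 1 + 4096 * 0 + 32768 * 5

set_option maxRecDepth 100000 in
theorem frA : frChk2 28 30 Pat = true := by decide +kernel

set_option maxRecDepth 100000 in
theorem frB : frChk2 33 39 Pbt = true := by decide +kernel

set_option maxRecDepth 100000 in
theorem moves : fl 0 27 1 = 28 ∧ fl 0 27 19 = 30 ∧ fl 97 263 1 = 33 ∧ fl 97 263 19 = 39 := by
  decide +kernel

theorem ptA : ∀ i : Fin 5, pt Pat i = pa i := by decide
theorem ptB : ∀ i : Fin 5, pt Pbt i = pb i := by decide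

theorem fl_eq (a b j : Fin 315) : fl a b j = (((zP a * zP b : P0) : Equiv.Perm (Fin 315)) j : ℕ) := by
  show ap (fullT.get a) (ap (fullT.get b) j) = _
  rw [rep_zP b j, rep_zP a _]
  rfl

theorem psi_of_chk {j k : Fin 315} {P : ℕ} {π : Equiv.Perm (Fin 5)} (h : frChk2 j k P = true)
    (hP : ∀ i : Fin 5, pt P i = π i) :
    ∃ hm : ((zP j * zP k : P0) : Equiv.Perm (Fin 315)) ∈ H2, psi ⟨_, hm⟩ = π := by
  rw [frChk2, band_iff] at h
  have h0 := Nat.eq_of_beq_eq_true h.1
  have hm : ((zP j * zP k : P0) : Equiv.Perm (Fin 315)) ∈ H2 := by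
    rw [mem_H2_iff (zP j * zP k : P0).2]
    apply Fin.ext
    rw [← fl_eq j k 0]
    exact h0
  refine ⟨hm, psi_unique _ _ fun x hx => ?_⟩
  have h1 := allN_sound h.2 x x.2
  have hx' : frm.get x < 5 := hx
  have h2 : Nat.blt (frm.get x) 5 = true := Nat.ble_eq_true_of_le hx'
  rw [h2] at h1
  have h3 : frm.get (fl j k x) = pt P (frm.get x) := Nat.eq_of_beq_eq_true h1
  rw [fl_eq] at h3
  have hD := (psi_spec ⟨_, hm⟩ x hx).1
  apply Fin.ext
  rw [frF_val hD, ← hP, frF_val hx]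
  exact h3

/-- the two elements -/
noncomputable def ya : P0 := zP 28 * zP 30
/-- the two elements -/
noncomputable def yb : P0 := zP 33 * zP 39
/-- the element of order 4 -/
noncomputable def x0 : P0 := zP 1 * zP 19

theorem ya_conj : ∃ g : P0, g * x0 * g⁻¹ = ya := by
  refine ⟨zP 0 * zP 27, ?_⟩
  have h1 := zP_conj (zP 0 * zP 27) 1
  have h2 := zP_conj (zP 0 * zP 27) 19
  have e1 : ((zP 0 * zP 27 : P0) : Equiv.Perm (Fin 315)) 1 = 28 := by
    apply Fin.ext
    rw [← fl_eq 0 27 1]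
    exact moves.1
  have e2 : ((zP 0 * zP 27 : P0) : Equiv.Perm (Fin 315)) 19 = 30 := by
    apply Fin.ext
    rw [← fl_eq 0 27 19]
    exact moves.2.1
  rw [e1] at h1
  rw [e2] at h2
  rw [ya, x0, ← h1, ← h2]
  group

theorem yb_conj : ∃ g : P0, g * x0 * g⁻¹ = yb := by
  refine ⟨zP 97 * zP 263, ?_⟩
  have h1 := zP_conj (zP 97 * zP 263) 1
  have h2 := zP_conj (zP 97 * zP 263) 19
  have e1 : ((zP 97 * zP 263 : P0) : Equiv.Perm (Fin 315)) 1 = 33 := by
    apply Fin.ext
    rw [← fl_eq 97 263 1]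
    exact moves.2.2.1
  have e2 : ((zP 97 * zP 263 : P0) : Equiv.Perm (Fin 315)) 19 = 39 := by
    apply Fin.ext
    rw [← fl_eq 97 263 19]
    exact moves.2.2.2
  rw [e1] at h1
  rw [e2] at h2
  rw [yb, x0, ← h1, ← h2]
  group

theorem ya_psi : ∃ hm : (ya : Equiv.Perm (Fin 315)) ∈ H2, psi ⟨_, hm⟩ = pa :=
  psi_of_chk (j := 28) (k := 30) frA ptA

theorem yb_psi : ∃ hm : (yb : Equiv.Perm (Fin 315)) ∈ H2, psi ⟨_, hm⟩ = pb :=
  psi_of_chk (j := 33) (k := 39) frB ptB

set_option maxRecDepth 100000 in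
theorem frm_in : Nat.blt (frm.get 1) 5 = true ∧ Nat.blt (frm.get 19) 5 = true := by decide +kernel

theorem x0_E : (x0 : Equiv.Perm (Fin 315)) ∈ E := by
  have h1 : (1 : Fin 315) ∈ DF := Nat.le_of_ble_eq_true frm_in.1
  have h2 : (19 : Fin 315) ∈ DF := Nat.le_of_ble_eq_true frm_in.2
  exact E.mul_mem (zP_mem_E h1) (zP_mem_E h2)

theorem pg : IsPGroup 2 SP := IsPGroup.of_card (n := 7) (by rw [card_SP]; norm_num)

theorem hA : HA SP := by
  haveI : Fact (Nat.Prime 2) := ⟨Nat.prime_two⟩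
  intro T hTS hT1 hT
  have hTn : SP ≤ Subgroup.normalizer (T : Set P0) := fun s hs =>
    Subgroup.mem_normalizer_fintype fun t ht => hT t ht s
      (Subgroup.mul_mem _ (Subgroup.mul_mem _ hs (hTS ht)) (Subgroup.inv_mem _ hs))
  have hz := H65.PBasic.inf_centralizer_ne_bot SP T pg (pg.to_le hTS) hTn hT1
  obtain ⟨⟨t, htT, htC⟩, ht1'⟩ := Subgroup.ne_bot_iff_exists_ne_one.1 hz
  have ht1 : t ≠ 1 := fun h => ht1' (Subtype.ext h)
  have htz : t = zP 0 := by
    rcases cent_E (g := t) (fun e he => by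
      exact (Subgroup.mem_centralizer_iff.1 htC e (E_le_SP he)).symm) with h | h
    · exact absurd h ht1
    · exact h
  subst htz
  -- all involutions of the class in `SP` are in `T`
  have hall : ∀ j : Fin 315, zP j ∈ SP → zP j ∈ T := by
    intro j hj
    obtain ⟨σ, hσ, h1⟩ := trans_P0 0 j
    have h2 := zP_conj ⟨σ, hσ⟩ 0
    have h3 : ((⟨σ, hσ⟩ : P0) : Equiv.Perm (Fin 315)) 0 = j := h1
    rw [h3] at h2
    rw [← h2] at hj ⊢
    exact hT _ htT _ hj
  -- `E ≤ T`
  have hET : ∀ g : P0, (g : Equiv.Perm (Fin 315)) ∈ E → g ∈ T := by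
    have key : E ≤ T.map P0.subtype := by
      refine (Subgroup.closure_le _).2 ?_
      rintro σ ⟨s, hs, hr⟩
      obtain ⟨j, hj⟩ := zPE s hs
      have h1 : σ = ((zP j : P0) : Equiv.Perm (Fin 315)) := hr.unique hj
      have h2 : σ ∈ E := Subgroup.subset_closure ⟨s, hs, hr⟩
      rw [h1] at h2 ⊢
      exact ⟨zP j, hall j (E_le_SP h2), rfl⟩
    intro g hg
    obtain ⟨g', hg', he⟩ := key hg
    rwa [← Subtype.ext (he : (g' : Equiv.Perm (Fin 315)) = g)]
  have hxT := hET x0 x0_E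
  have hyaT : ya ∈ T := by
    obtain ⟨g, hg⟩ := ya_conj
    have h1 : ya ∈ SP := by
      obtain ⟨hm, hp⟩ := ya_psi
      exact mem_SP.2 ⟨hm, by rw [hp]; exact Or.inr (Or.inl rfl)⟩
    rw [← hg] at h1 ⊢
    exact hT _ hxT g h1
  have hybT : yb ∈ T := by
    obtain ⟨g, hg⟩ := yb_conj
    have h1 : yb ∈ SP := by
      obtain ⟨hm, hp⟩ := yb_psi
      exact mem_SP.2 ⟨hm, by rw [hp]; exact Or.inr (Or.inr (Or.inl rfl))⟩
    rw [← hg] at h1 ⊢
    exact hT _ hxT g h1
  -- conclusion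
  have fin : ∀ (g y : P0) (hg : (g : Equiv.Perm (Fin 315)) ∈ H2) (hy : (y : Equiv.Perm (Fin 315)) ∈ H2),
      y ∈ T → psi ⟨g, hg⟩ = psi ⟨y, hy⟩ → g ∈ T := by
    intro g y hg hy hyT he
    have h1 : (⟨(g : Equiv.Perm (Fin 315)), hg⟩ : H2) * (⟨y, hy⟩ : H2)⁻¹ ∈ psi.ker := by
      rw [MonoidHom.mem_ker, map_mul, map_inv, he, mul_inv_cancel]
    rw [← ker_eq_E] at h1
    have h2 : ((g * y⁻¹ : P0) : Equiv.Perm (Fin 315)) ∈ E := h1
    have h3 := T.mul_mem (hET _ h2) hyT
    rwa [inv_mul_cancel_right] at h3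
  intro g hg
  obtain ⟨hm, hv⟩ := mem_SP.1 hg
  obtain ⟨ha1, ha2⟩ := ya_psi
  obtain ⟨hb1, hb2⟩ := yb_psi
  rcases hv with h | h | h | h
  · exact fin g 1 hm H2.one_mem T.one_mem (h.trans (map_one psi).symm)
  · exact fin g ya hm ha1 hyaT (h.trans ha2.symm)
  · exact fin g yb hm hb1 hybT (h.trans hb2.symm)
  · refine fin g (ya * yb) hm (H2.mul_mem ha1 hb1) (T.mul_mem hyaT hybT) (h.trans ?_)
    rw [← ha2, ← hb2, ← map_mul]
    rfl

/-- the subgroup `E` in `P0` -/
noncomputable def EP : Subgroup P0 := E.subgroupOf P0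

theorem pc : PCentric 2 EP := by
  intro x hx _
  rcases cent_E (g := x) (fun e he => (Subgroup.mem_centralizer_iff.1 hx e he).symm) with h | h
  · rw [h]; exact EP.one_mem
  · rw [h]; exact z0_mem

/-- `C(z)` is contained in `O^{2'}(N(E))` -/
theorem cent_le : ∀ g : P0, (g : Equiv.Perm (Fin 315)) ∈ H2 → g ∈ opN 2 EP := by
  haveI : Fact (Nat.Prime 2) := ⟨Nat.prime_two⟩
  have hn : ∀ g : P0, (g : Equiv.Perm (Fin 315)) ∈ H2 → g ∈ Subgroup.normalizer (EP : Set P0) := by
    intro g hg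
    have key : ∀ (g x : P0), (g : Equiv.Perm (Fin 315)) ∈ H2 → x ∈ EP → g * x * g⁻¹ ∈ EP := by
      intro g x hg hx
      have hx' : (⟨(x : Equiv.Perm (Fin 315)), E_le hx⟩ : H2) ∈ psi.ker := by
        rw [← ker_eq_E]; exact hx
      have h1 := (inferInstance : psi.ker.Normal).conj_mem _ hx' ⟨g, hg⟩
      rw [← ker_eq_E] at h1
      exact h1
    rw [Subgroup.mem_normalizer_iff]
    intro x
    refine ⟨key g x hg, fun h => ?_⟩
    have h1 := key g⁻¹ _ (H2.inv_mem hg) h
    have h2 : g⁻¹ * (g * x * g⁻¹) * g⁻¹⁻¹ = x := by group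
    rwa [h2] at h1
  -- the subgroup of `H2`
  let O : Subgroup H2 := (opN 2 EP).comap (Subgroup.inclusion ok.h2P)
  have hO2 : ∀ (h : H2) (k : ℕ), h ^ 2 ^ k = 1 → h ∈ O := by
    intro h k hk
    show Subgroup.inclusion ok.h2P h ∈ opN 2 EP
    apply mem_opN (hn _ h.2) (k := k) _ Nat.prime_two
    rw [← map_pow, hk, map_one]
  let N : Subgroup H2 := Subgroup.normalClosure {h : H2 | ∃ k : ℕ, h ^ 2 ^ k = 1}
  have hNO : N ≤ O := by
    show Subgroup.closure _ ≤ O
    rw [Subgroup.closure_le]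
    intro x hx
    obtain ⟨y, ⟨k, hk⟩, hc⟩ := Group.mem_conjugatesOfSet_iff.1 hx
    obtain ⟨c, rfl⟩ := isConj_iff.1 hc
    apply hO2 _ k
    rw [conj_pow, hk, mul_one, mul_inv_cancel]
  have hker : psi.ker ≤ N := by
    intro h hh
    rw [← ker_eq_E] at hh
    apply Subgroup.subset_normalClosure
    refine ⟨2, ?_⟩
    apply Subtype.ext
    have h1 : (h : Equiv.Perm (Fin 315)) ^ 4 = 1 := by
      have hh' : (h : Equiv.Perm (Fin 315)) ∈ E := hh
      rcases sq_mem hh' with h2 | h2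
      · rw [show 4 = 2 * 2 from rfl, pow_mul, pow_two (h : Equiv.Perm (Fin 315)), h2, one_pow]
      · rw [show 4 = 2 * 2 from rfl, pow_mul, pow_two (h : Equiv.Perm (Fin 315)), h2]
        have := congrArg Subtype.val (zP_sq 0)
        rw [pow_two]
        exact this
    exact h1
  obtain ⟨hya, hyp⟩ := ya_psi
  have hyaN : (⟨ya, hya⟩ : H2) ∈ N := by
    apply Subgroup.subset_normalClosure
    refine ⟨2, ?_⟩
    apply Subtype.ext
    obtain ⟨g, hg⟩ := ya_conj
    have hx4 : x0 ^ 4 = 1 := by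
      apply Subtype.ext
      show (x0 : Equiv.Perm (Fin 315)) ^ 4 = 1
      rcases sq_mem x0_E with h2 | h2
      · rw [show 4 = 2 * 2 from rfl, pow_mul, pow_two (x0 : Equiv.Perm (Fin 315)), h2, one_pow]
      · rw [show 4 = 2 * 2 from rfl, pow_mul, pow_two (x0 : Equiv.Perm (Fin 315)), h2]
        have := congrArg Subtype.val (zP_sq 0)
        rw [pow_two]
        exact this
    have h4 : ya ^ 4 = 1 := by rw [← hg, conj_pow, hx4, mul_one, mul_inv_cancel]
    have h5 : (ya : Equiv.Perm (Fin 315)) ^ 4 = 1 := congrArg Subtype.val h4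
    exact h5
  have hNtop : N = ⊤ := by
    have hNn : N.Normal := Subgroup.normalClosure_normal
    have hsimple : IsSimpleGroup psi.range := by
      rw [psi_range]; exact alternatingGroup.isSimpleGroup_five
    have hMn : (N.map psi.rangeRestrict).Normal := hNn.map _ psi.rangeRestrict_surjective
    rcases hsimple.eq_bot_or_eq_top_of_normal _ hMn with h1 | h1
    · exfalso
      have h2 : psi.rangeRestrict ⟨ya, hya⟩ ∈ N.map psi.rangeRestrict := ⟨_, hyaN, rfl⟩
      rw [h1, Subgroup.mem_bot] at h2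
      have h3 : psi ⟨ya, hya⟩ = 1 := congrArg Subtype.val h2
      rw [hyp] at h3
      exact absurd h3 (by decide)
    · rw [eq_top_iff]
      intro h _
      have h2 : psi.rangeRestrict h ∈ N.map psi.rangeRestrict := by rw [h1]; exact Subgroup.mem_top _
      obtain ⟨n, hn, he⟩ := h2
      have h3 : psi n = psi h := congrArg Subtype.val he
      have h4 : h * n⁻¹ ∈ psi.ker := by
        rw [MonoidHom.mem_ker, map_mul, map_inv, h3, mul_inv_cancel]
      have h5 := N.mul_mem (hker h4) hn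
      rwa [inv_mul_cancel_right] at h5
  intro g hg
  have : (⟨g, hg⟩ : H2) ∈ O := hNO (by rw [hNtop]; exact Subgroup.mem_top _)
  exact this

theorem hB : HB 2 SP := by
  intro g hg
  have hzS : zP 0 ∈ SP := E_le_SP z0_mem
  have hz1 : g * zP 0 * g⁻¹ = 1 ∨ g * zP 0 * g⁻¹ = zP 0 := by
    apply cent_E
    intro e he
    -- `g⁻¹ e g` is in `SP`
    have h1 : g⁻¹ * e * g ∈ SP := by
      have h2 := (Subgroup.mem_normalizer_iff.1 hg (g⁻¹ * e * g)).2
      apply h2
      have h3 : g * (g⁻¹ * e * g) * g⁻¹ = e := by group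
      rw [h3]
      exact E_le_SP he
    obtain ⟨h4, -⟩ := mem_SP.1 h1
    have h5 : g⁻¹ * e * g ∈ Subgroup.centralizer ({zP 0} : Set P0) := by
      rw [cent_z0]; exact h4
    rw [Subgroup.mem_centralizer_singleton_iff] at h5
    calc g * zP 0 * g⁻¹ * e = g * (zP 0 * (g⁻¹ * e * g)) * g⁻¹ := by group
      _ = g * ((g⁻¹ * e * g) * zP 0) * g⁻¹ := by rw [h5]
      _ = _ := by group
  have hz : g * zP 0 * g⁻¹ = zP 0 := by
    rcases hz1 with h | h
    · exfalso
      apply zP_ne 0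
      have : zP 0 = g⁻¹ * (g * zP 0 * g⁻¹) * g := by group
      rw [this, h]; group
    · exact h
  have hgC : g ∈ Subgroup.centralizer ({zP 0} : Set P0) := by
    rw [Subgroup.mem_centralizer_singleton_iff]
    rwa [mul_inv_eq_iff_eq_mul] at hz
  rw [cent_z0] at hgC
  exact Subgroup.subset_closure ⟨hg, EP, fun e he => E_le_SP he, pc,
    Subgroup.mem_sup_left (cent_le g hgC)⟩

theorem fus_simple {G : Type*} [Group G] [Finite G] (hG : Cfsg.Spor.IsoJ2 G) (S : Sylow 2 G) :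
    (Cfsg.groupFusionSystem (S : Subgroup G)).IsSimple 2 := by
  haveI : Fact (Nat.Prime 2) := ⟨Nat.prime_two⟩
  obtain ⟨e⟩ := hG
  have hc : Nat.card SP = 2 ^ (Nat.card P0).factorization 2 := by
    rw [fact_two (G := P0) (by rw [card_P0]; norm_num) (by rw [card_P0]), card_SP]; norm_num
  have hS : ((Sylow.ofCard SP hc : Sylow 2 P0) : Subgroup P0) = SP := rfl
  refine isSimple_of_equiv ((e.trans jiso).symm) (Sylow.ofCard SP hc) ?_ ?_ ?_ S
  · rw [hS]
    intro h
    have := card_SP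
    rw [h, Subgroup.card_bot] at this
    norm_num at this
  · rw [hS]; exact hA
  · rw [hS]; exact hB

end H63.J2
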