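import Mathlib

/-! Quasiprimitive groups and Jordan sets (helper63). -/

namespace H63.JordanSet

open MulAction Pointwise

variable {G Ω : Type*} [Group G] [MulAction G Ω]

theorem isPretransitive_of_qp
    (hqp : ∀ N : Subgroup G, N.Normal → N ≠ ⊥ → IsPretransitive ↥N Ω) [Nontrivial G] :
    IsPretransitive G Ω := by
  have h := hqp ⊤ inferInstance top_ne_bot
  refine ⟨fun x y => ?_⟩
  obtain ⟨g, hg⟩ := h.exists_smul_eq x y
  exact ⟨g, hg⟩

/-- In a quasiprimitive action, an element fixing every translate of a proper non-empty subset is trivial. -/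
theorem eq_one_of_forall_smul_eq
    (hqp : ∀ N : Subgroup G, N.Normal → N ≠ ⊥ → IsPretransitive ↥N Ω)
    {B : Set Ω} (hne : B.Nonempty) (hB1 : B ≠ Set.univ) {g : G}
    (hg : ∀ x : G, g • x • B = x • B) : g = 1 := by
  by_contra hg1
  have hK : (stabilizer G B).normalCore ≠ ⊥ := by
    intro h
    apply hg1
    have : g ∈ (stabilizer G B).normalCore := by
      intro b
      rw [mem_stabilizer_iff]
      have := hg b⁻¹
      calc (b * g * b⁻¹) • B = b • (g • b⁻¹ • B) := by simp [mul_smul]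
        _ = B := by rw [this, smul_inv_smul]
    rw [h] at this
    exact Subgroup.mem_bot.mp this
  have htr := hqp _ (Subgroup.normalCore_normal _) hK
  obtain ⟨b, hb⟩ := hne
  obtain ⟨c, hc⟩ := (Set.ne_univ_iff_exists_notMem B).mp hB1
  obtain ⟨⟨k, hk⟩, hkb⟩ := htr.exists_smul_eq b c
  have hk' : k ∈ stabilizer G B := Subgroup.normalCore_le _ hk
  rw [mem_stabilizer_iff] at hk'
  apply hc
  rw [← hk', ← hkb]
  exact Set.smul_mem_smul_set hb

theorem smul_block_eq_of_meets {Γ : Set Ω} {B : Set Ω} (hB : IsBlock G B) {h : G}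
    (hh : h ∈ fixingSubgroup G Γᶜ) (hm : (B ∩ Γᶜ).Nonempty) : h • B = B := by
  obtain ⟨a, haB, haΓ⟩ := hm
  have h1 : h • a = a := (mem_fixingSubgroup_iff G).mp hh a haΓ
  exact (isBlock_iff_smul_eq_of_mem.mp hB) haB (by rw [h1]; exact haB)

/-- The pointwise stabilizer of the complement of a Jordan set with at least two points is nontrivial. -/
theorem exists_ne_one {Γ : Set Ω} (hΓ : 1 < Γ.ncard)
    (hJ : IsPretransitive ↥(fixingSubgroup G Γᶜ) ↥(SubMulAction.ofFixingSubgroup G Γᶜ)) :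
    ∃ h ∈ fixingSubgroup G Γᶜ, h ≠ 1 := by
  obtain ⟨a, b, ha, hb, hab⟩ := Set.one_lt_ncard_iff (Set.finite_of_ncard_pos (by omega)) |>.mp hΓ
  have ha' : a ∈ SubMulAction.ofFixingSubgroup G Γᶜ := by
    rw [SubMulAction.mem_ofFixingSubgroup_iff]; simpa using ha
  have hb' : b ∈ SubMulAction.ofFixingSubgroup G Γᶜ := by
    rw [SubMulAction.mem_ofFixingSubgroup_iff]; simpa using hb
  obtain ⟨⟨g, hg⟩, hgab⟩ := hJ.exists_smul_eq ⟨a, ha'⟩ ⟨b, hb'⟩
  refine ⟨g, hg, ?_⟩
  rintro rfl
  apply hab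
  have := congrArg Subtype.val hgab
  simpa using this

/-- A quasiprimitive group with a Jordan set on which it acts primitively is primitive. -/
theorem isPreprimitive_of_qp_of_jordan
    (hqp : ∀ N : Subgroup G, N.Normal → N ≠ ⊥ → IsPretransitive ↥N Ω)
    {Γ : Set Ω} (hΓ1 : 1 < Γ.ncard)
    (hJp : IsPreprimitive ↥(fixingSubgroup G Γᶜ) ↥(SubMulAction.ofFixingSubgroup G Γᶜ)) :
    IsPreprimitive G Ω := by
  obtain ⟨h, hh, hne⟩ := exists_ne_one hΓ1 hJp.toIsPretransitive
  haveI : Nontrivial G := ⟨⟨h, 1, hne⟩⟩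
  haveI := isPretransitive_of_qp hqp
  refine { isTrivialBlock_of_isBlock := ?_ }
  intro B hB
  by_contra hnt
  have hnt' : ¬ B.Subsingleton ∧ B ≠ Set.univ := not_or.mp hnt
  have hBne : B.Nonempty := by
    rw [Set.nonempty_iff_ne_empty]
    rintro rfl
    exact hnt'.1 Set.subsingleton_empty
  apply hne
  apply eq_one_of_forall_smul_eq hqp hBne hnt'.2
  intro x
  have hxB : IsBlock G (x • B) := hB.translate x
  by_cases hm : ((x • B) ∩ Γᶜ).Nonempty
  · exact smul_block_eq_of_meets hxB hh hm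
  · -- x • B ⊆ Γ
    have hsub : x • B ⊆ Γ := by
      intro y hy
      by_contra hyΓ
      exact hm ⟨y, hy, hyΓ⟩
    have hpre : IsBlock ↥(fixingSubgroup G Γᶜ)
        ((↑) ⁻¹' (x • B) : Set ↥(SubMulAction.ofFixingSubgroup G Γᶜ)) :=
      IsBlock.subtype_val_preimage (hxB.subgroup)
    have htriv := hJp.isTrivialBlock_of_isBlock hpre
    rcases htriv with h1 | h1
    · exfalso
      apply hnt'.1
      intro a ha b hb
      have ha' : x • a ∈ x • B := Set.smul_mem_smul_set ha
      have hb' : x • b ∈ x • B := Set.smul_mem_smul_set hb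
      have ha'' : x • a ∈ SubMulAction.ofFixingSubgroup G Γᶜ := by
        rw [SubMulAction.mem_ofFixingSubgroup_iff]; simpa using hsub ha'
      have hb'' : x • b ∈ SubMulAction.ofFixingSubgroup G Γᶜ := by
        rw [SubMulAction.mem_ofFixingSubgroup_iff]; simpa using hsub hb'
      have := h1 (show (⟨x • a, ha''⟩ : ↥(SubMulAction.ofFixingSubgroup G Γᶜ)) ∈ _ from ha')
        (show (⟨x • b, hb''⟩ : ↥(SubMulAction.ofFixingSubgroup G Γᶜ)) ∈ _ from hb')
      have := congrArg Subtype.val this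
      exact MulAction.injective x this
    · -- x • B = Γ
      have hΓB : Γ ⊆ x • B := by
        intro y hy
        have hy' : y ∈ SubMulAction.ofFixingSubgroup G Γᶜ := by
          rw [SubMulAction.mem_ofFixingSubgroup_iff]; simpa using hy
        have : (⟨y, hy'⟩ : ↥(SubMulAction.ofFixingSubgroup G Γᶜ)) ∈ (Set.univ : Set _) := trivial
        rw [← h1] at this
        exact this
      have hΓne : Γ.Nonempty := by
        rw [Set.nonempty_iff_ne_empty]
        rintro rfl
        simp at hΓ1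
      obtain ⟨y, hy⟩ := hΓne
      have hy1 : h • y ∈ x • B := by
        apply hΓB
        have hy' : y ∈ SubMulAction.ofFixingSubgroup G Γᶜ := by
          rw [SubMulAction.mem_ofFixingSubgroup_iff]; simpa using hy
        have := ((⟨h, hh⟩ : ↥(fixingSubgroup G Γᶜ)) • (⟨y, hy'⟩ : ↥(SubMulAction.ofFixingSubgroup G Γᶜ))).2
        rw [SubMulAction.mem_ofFixingSubgroup_iff] at this
        simpa using this
      exact (isBlock_iff_smul_eq_of_mem.mp hxB) (hΓB hy) hy1

end H63.JordanSet
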