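import Cfsg.Agent.Lib.H63.MarggrafThm
import Cfsg.Agent.Lib.H63.JordanSet

/-! Quasiprimitive version of Marggraf's theorem (helper63). -/

namespace H63.Marggraf

open Finset MulAction Pointwise

/-- Even permutations fixing a point are products of 3-cycles fixing it. -/
theorem mem_of_three_cycles {X : Type*} [Fintype X] [DecidableEq X] (x0 : X) (P : Subgroup (Equiv.Perm X))
    (hP : ∀ τ : Equiv.Perm X, τ.IsThreeCycle → τ x0 = x0 → τ ∈ P) {σ : Equiv.Perm X} (hσ : Equiv.Perm.sign σ = 1)
    (hσ0 : σ x0 = x0) : σ ∈ P := by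
  have h1 : ∀ x, (σ x ≠ x0) ↔ x ≠ x0 := by
    intro x
    constructor
    · rintro h rfl
      exact h hσ0
    · intro h h2
      exact h (σ.injective (h2.trans hσ0.symm))
  have h2 : ∀ x, σ x ≠ x → x ≠ x0 := by
    rintro x hx rfl
    exact hx hσ0
  have h3 : σ.subtypePerm (p := fun x => x ≠ x0) h1 ∈ alternatingGroup {x : X // x ≠ x0} := by
    rw [Equiv.Perm.mem_alternatingGroup, Equiv.Perm.sign_subtypePerm _ _ h2]
    exact hσ
  rw [← Equiv.Perm.closure_three_cycles_eq_alternating] at h3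
  have h4 : ∀ τ ∈ Subgroup.closure {τ : Equiv.Perm {x : X // x ≠ x0} | τ.IsThreeCycle},
      Equiv.Perm.ofSubtype τ ∈ P := by
    intro τ hτ
    induction hτ using Subgroup.closure_induction with
    | mem τ hτ =>
      apply hP
      · show (Equiv.Perm.ofSubtype τ).cycleType = {3}
        rw [Equiv.Perm.cycleType_ofSubtype]
        exact hτ
      · exact Equiv.Perm.ofSubtype_apply_of_not_mem τ (by simp)
    | one => rw [map_one]; exact P.one_mem
    | mul a b _ _ ha hb => rw [map_mul]; exact P.mul_mem ha hb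
    | inv a _ ha => rw [map_inv]; exact P.inv_mem ha
  have h5 := h4 _ h3
  rwa [Equiv.Perm.ofSubtype_subtypePerm h1 h2] at h5

/-- The combinatorial core of the imprimitive case. -/
theorem no_cover {G Ω X : Type*} [Group G] [MulAction G Ω] [MulAction G X] [Fintype Ω] [Fintype X]
    [DecidableEq Ω] [DecidableEq X] (π : Ω → X) (hπ : ∀ (g : G) (w : Ω), π (g • w) = g • π w)
    (hsurj : Function.Surjective π)
    (hqp : ∀ N : Subgroup G, N.Normal → N ≠ ⊥ → IsPretransitive ↥N Ω) (hfaith : ∀ g : G, (∀ x : X, g • x = x) → g = 1)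
    (hprim : IsPreprimitive G X) {Γ : Finset Ω} (hJ : IsJ G Γ) (hΓ1 : 1 < Γ.card)
    (hΓ2 : 2 * Γ.card < Fintype.card Ω) {u : G} {ω : Ω} (hu1 : u • ω ≠ ω) (hu2 : u • π ω = π ω) : False := by
  classical
  have hXtr : IsPretransitive G X := hprim.toIsPretransitive
  -- some element of `H`
  obtain ⟨h0, hh0, h0ne⟩ : ∃ h : G, (∀ z, z ∉ Γ → h • z = z) ∧ h ≠ 1 := by
    obtain ⟨x, hx, y, hy, hxy⟩ := Finset.one_lt_card.mp hΓ1
    obtain ⟨h, hh, hhx⟩ := hJ x hx y hy
    refine ⟨h, hh, ?_⟩
    rintro rfl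
    rw [one_smul] at hhx
    exact hxy hhx
  -- fibres meeting `Γ` lie in `Γ`
  have hfib : ∀ w1 w2, π w1 = π w2 → w1 ∈ Γ → w2 ∈ Γ := by
    intro w1 w2 h12 hw1
    by_contra hw2
    apply h0ne
    apply hfaith
    intro x
    obtain ⟨w, rfl⟩ := hsurj x
    by_cases hw : w ∈ Γ
    · obtain ⟨h', hh', hh'w⟩ := hJ w1 hw1 w hw
      have e1 : π w = π w2 := by
        rw [← hh'w, hπ, h12, ← hπ, hh' w2 hw2]
      rw [e1, ← hπ, hh0 w2 hw2]
    · rw [← hπ, hh0 w hw]
  let S : Finset X := Γ.image π
  have hSmem : ∀ w, π w ∈ S ↔ w ∈ Γ := by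
    intro w
    constructor
    · intro h
      obtain ⟨w', hw', hw''⟩ := Finset.mem_image.mp h
      exact hfib w' w hw'' hw'
    · intro h
      exact Finset.mem_image_of_mem π h
  let J : Finset X → Prop := fun T => IsJ G (Finset.univ.filter (fun w : Ω => π w ∈ T))
  have hJC : JClass G J := by
    refine ⟨?_, ?_, ?_⟩
    · intro T hT x hx y hy
      obtain ⟨w, rfl⟩ := hsurj x
      obtain ⟨w', rfl⟩ := hsurj y
      obtain ⟨g, hg, hgw⟩ := hT w (by simpa using hx) w' (by simpa using hy)
      refine ⟨g, ?_, ?_⟩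
      · intro z hz
        obtain ⟨v, rfl⟩ := hsurj z
        rw [← hπ, hg v (by simpa using hz)]
      · rw [← hπ, hgw]
    · intro T g hT
      have e1 : (Finset.univ.filter (fun w : Ω => π w ∈ g • T)) = g • (Finset.univ.filter (fun w : Ω => π w ∈ T)) := by
        ext w
        rw [← Finset.inv_smul_mem_iff]
        simp only [Finset.mem_filter, Finset.mem_univ, true_and]
        rw [← Finset.inv_smul_mem_iff, hπ]
      show IsJ G (Finset.univ.filter (fun w : Ω => π w ∈ g • T))
      rw [e1]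
      exact IsJ.smul hT g
    · intro T T' p hT hT' hp hp'
      obtain ⟨w, rfl⟩ := hsurj p
      have e1 : (Finset.univ.filter (fun w : Ω => π w ∈ T ∪ T')) =
          (Finset.univ.filter (fun w : Ω => π w ∈ T)) ∪ (Finset.univ.filter (fun w : Ω => π w ∈ T')) := by
        ext w
        simp
      show IsJ G (Finset.univ.filter (fun w : Ω => π w ∈ T ∪ T'))
      rw [e1]
      exact IsJ.union hT hT' (p := w) (by simpa using hp) (by simpa using hp')
  have hJS : J S := by
    have e1 : (Finset.univ.filter (fun w : Ω => π w ∈ S)) = Γ := by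
      ext w
      simp only [Finset.mem_filter, Finset.mem_univ, true_and]
      exact hSmem w
    show IsJ G (Finset.univ.filter (fun w : Ω => π w ∈ S))
    rw [e1]
    exact hJ
  have hS1 : 1 < S.card := by
    by_contra hcon
    have hcon' := Finset.card_le_one.mp (not_lt.mp hcon)
    apply h0ne
    apply hfaith
    intro x
    obtain ⟨w, rfl⟩ := hsurj x
    by_cases hw : w ∈ Γ
    · have e1 : h0 • w ∈ Γ := by
        by_contra h2
        have h3 := hh0 _ h2
        have h4 := MulAction.injective h0 h3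
        rw [h4] at h2
        exact h2 hw
      rw [← hπ]
      exact hcon' _ ((hSmem _).mpr e1) _ ((hSmem _).mpr hw)
    · rw [← hπ, hh0 w hw]
  -- fibre sizes
  have hfc : ∀ x y : X, (Finset.univ.filter (fun w : Ω => π w = x)).card = (Finset.univ.filter (fun w : Ω => π w = y)).card := by
    intro x y
    obtain ⟨g, hg⟩ := hXtr.exists_smul_eq x y
    apply Finset.card_bij (fun w _ => g • w)
    · intro w hw
      rw [Finset.mem_filter] at hw ⊢
      exact ⟨Finset.mem_univ _, by rw [hπ, hw.2, hg]⟩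
    · intro a _ b _ h
      exact MulAction.injective g h
    · intro w hw
      rw [Finset.mem_filter] at hw
      refine ⟨g⁻¹ • w, ?_, smul_inv_smul g w⟩
      rw [Finset.mem_filter]
      exact ⟨Finset.mem_univ _, by rw [hπ, hw.2, ← hg, inv_smul_smul]⟩
  have hS2 : 2 * S.card < Fintype.card X := by
    let f := (Finset.univ.filter (fun w : Ω => π w = π ω)).card
    have e1 : Γ.card = S.card * f := by
      rw [Finset.card_eq_sum_card_fiberwise (f := π) (s := Γ) (t := S) (fun w hw => (hSmem w).mpr hw)]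
      rw [Finset.sum_congr rfl (g := fun _ => f), Finset.sum_const, smul_eq_mul]
      intro x hx
      show _ = f
      rw [show f = (Finset.univ.filter (fun w : Ω => π w = x)).card from hfc _ _]
      congr 1
      ext w
      simp only [Finset.mem_filter, Finset.mem_univ, true_and]
      constructor
      · exact fun h => h.2
      · intro h
        exact ⟨(hSmem w).mp (by rw [h]; exact hx), h⟩
    have e2 : Fintype.card Ω = Fintype.card X * f := by
      rw [← Finset.card_univ, Finset.card_eq_sum_card_fiberwise (f := π) (s := (Finset.univ : Finset Ω)) (t := (Finset.univ : Finset X))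
        (fun w _ => Finset.mem_coe.mpr (Finset.mem_univ _))]
      rw [Finset.sum_congr rfl (g := fun _ => f), Finset.sum_const, smul_eq_mul, Finset.card_univ]
      intro x _
      exact hfc _ _
    rw [e1, e2] at hΓ2
    by_contra hcon
    have h3 : Fintype.card X * f ≤ (2 * S.card) * f := Nat.mul_le_mul_right f (not_lt.mp hcon)
    have h4 : (2 * S.card) * f = 2 * (S.card * f) := by ring
    omega
  have hX5 : 5 ≤ Fintype.card X := by omega
  obtain ⟨Γ1, Γ2, hJ1, hJ2, h1, h2, a, hga⟩ := exists_single hJC hprim hJS hS1 hS2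
  have halt := alternating_le_of_single hprim (hJC.isJ _ hJ1) (hJC.isJ _ hJ2) h1 h2 hga
  -- the special 3-cycle
  have ha : a ∈ Γ1 ∧ a ∈ Γ2 := by
    have : a ∈ Γ1 ∩ Γ2 := by rw [hga]; exact Finset.mem_singleton_self a
    exact Finset.mem_inter.mp this
  have honly : ∀ z, z ∈ Γ1 → z ∈ Γ2 → z = a := by
    intro z hz1 hz2
    have : z ∈ Γ1 ∩ Γ2 := Finset.mem_inter.mpr ⟨hz1, hz2⟩
    rw [hga] at this
    exact Finset.mem_singleton.mp this
  obtain ⟨b, hb, hba⟩ := Finset.exists_mem_ne h1 a
  obtain ⟨b', hb', hb'a⟩ := Finset.exists_mem_ne h2 a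
  obtain ⟨va, hva⟩ := hsurj a
  obtain ⟨vb, hvb⟩ := hsurj b
  obtain ⟨vb', hvb'⟩ := hsurj b'
  obtain ⟨h, hh, hab⟩ := hJ1 va (by simpa [hva] using ha.1) vb (by simpa [hvb] using hb)
  obtain ⟨k, hk, hab'⟩ := hJ2 va (by simpa [hva] using ha.2) vb' (by simpa [hvb'] using hb')
  have hh' : ∀ w, π w ∉ Γ1 → h • w = w := fun w hw => hh w (by simpa using hw)
  have hk' : ∀ w, π w ∉ Γ2 → k • w = w := fun w hw => hk w (by simpa using hw)
  have hhX : ∀ x, x ∉ Γ1 → h • x = x := by
    intro x hx
    obtain ⟨w, rfl⟩ := hsurj x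
    rw [← hπ, hh' w hx]
  have hkX : ∀ x, x ∉ Γ2 → k • x = x := by
    intro x hx
    obtain ⟨w, rfl⟩ := hsurj x
    rw [← hπ, hk' w hx]
  have hha : h • a = b := by rw [← hva, ← hπ, hab, hvb]
  have hka : k • a = b' := by rw [← hva, ← hπ, hab', hvb']
  have hinvΓ1 : ∀ x, x ∈ Γ1 → h⁻¹ • x ∈ Γ1 := by
    intro x hx
    by_contra hcon
    have := hhX _ hcon
    rw [smul_inv_smul] at this
    rw [← this] at hcon
    exact hcon hx
  have hinvΓ2 : ∀ x, x ∈ Γ2 → k⁻¹ • x ∈ Γ2 := by
    intro x hx
    by_contra hcon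
    have := hkX _ hcon
    rw [smul_inv_smul] at this
    rw [← this] at hcon
    exact hcon hx
  have hcfix : ∀ w, π w ≠ a → π w ≠ b → π w ≠ b' → (h * k * h⁻¹ * k⁻¹) • w = w := by
    intro w hwa hwb hwb'
    rw [mul_smul, mul_smul, mul_smul]
    by_cases hw2 : π w ∈ Γ2
    · have hw1 : π w ∉ Γ1 := fun h1 => hwa (honly _ h1 hw2)
      have e1 : k⁻¹ • π w ∉ Γ1 := by
        intro h1
        have := honly _ h1 (hinvΓ2 _ hw2)
        rw [inv_smul_eq_iff, hka] at this
        exact hwb' this
      have e2 : h⁻¹ • k⁻¹ • w = k⁻¹ • w := by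
        rw [inv_smul_eq_iff, hh' (k⁻¹ • w) (by rw [hπ]; exact e1)]
      rw [e2, smul_inv_smul, hh' w hw1]
    · have e1 : k⁻¹ • w = w := by rw [inv_smul_eq_iff, hk' w hw2]
      rw [e1]
      have e2 : h⁻¹ • π w ∉ Γ2 := by
        intro h3
        by_cases hw1 : π w ∈ Γ1
        · have := honly _ (hinvΓ1 _ hw1) h3
          rw [inv_smul_eq_iff, hha] at this
          exact hwb this
        · rw [show h⁻¹ • π w = π w by rw [inv_smul_eq_iff, hhX _ hw1]] at h3
          exact hw2 h3
      rw [hk' (h⁻¹ • w) (by rw [hπ]; exact e2), smul_inv_smul]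
  have hc3 : (MulAction.toPermHom G X h * MulAction.toPermHom G X k * (MulAction.toPermHom G X h)⁻¹ *
      (MulAction.toPermHom G X k)⁻¹).IsThreeCycle := by
    apply isThreeCycle_commutator (a := a)
    · intro z hz1 hz2
      refine honly z ?_ ?_
      · by_contra hcon; exact hz1 (hhX z hcon)
      · by_contra hcon; exact hz2 (hkX z hcon)
    · intro h2; exact hba (hha.symm.trans h2)
    · intro h2; exact hb'a (hka.symm.trans h2)
  have hc3' : (MulAction.toPermHom G X (h * k * h⁻¹ * k⁻¹)).IsThreeCycle := by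
    simp only [map_mul, map_inv]; exact hc3
  have hcX : ∀ x, (h * k * h⁻¹ * k⁻¹) • x = x → x ≠ a ∧ x ≠ b ∧ x ≠ b' := by
    obtain ⟨s1, s2, s3, s4⟩ := support_commutator (h := MulAction.toPermHom G X h) (k := MulAction.toPermHom G X k) (a := a)
      (by
        intro z hz1 hz2
        refine honly z ?_ ?_
        · by_contra hcon; exact hz1 (hhX z hcon)
        · by_contra hcon; exact hz2 (hkX z hcon))
      (by intro h2; exact hba (hha.symm.trans h2))
      (by intro h2; exact hb'a (hka.symm.trans h2))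
    have hperm : ∀ x, (h * k * h⁻¹ * k⁻¹) • x = (MulAction.toPermHom G X h * MulAction.toPermHom G X k *
        (MulAction.toPermHom G X h)⁻¹ * (MulAction.toPermHom G X k)⁻¹) x := by
      intro x
      show MulAction.toPermHom G X (h * k * h⁻¹ * k⁻¹) x = _
      rw [map_mul, map_mul, map_mul, map_inv, map_inv]
    have t1 : (h * k * h⁻¹ * k⁻¹) • a = b := (hperm a).trans (s1.trans hha)
    have t2 : (h * k * h⁻¹ * k⁻¹) • b = b' := by
      have := s2
      rw [show (MulAction.toPermHom G X h) a = b from hha] at this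
      exact (hperm b).trans (this.trans hka)
    have t3 : (h * k * h⁻¹ * k⁻¹) • b' = a := by
      have := s3
      rw [show (MulAction.toPermHom G X k) a = b' from hka] at this
      exact (hperm b').trans this
    intro x hx
    refine ⟨?_, ?_, ?_⟩
    · rintro rfl; exact hba (t1.symm.trans hx)
    · rintro rfl
      have e1 : b' = x := t2.symm.trans hx
      have e2 : x = a := by
        have := t3
        rw [e1] at this
        exact hx.symm.trans this
      exact hba e2
    · rintro rfl; exact hb'a (hx.symm.trans t3)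
  generalize h * k * h⁻¹ * k⁻¹ = c at hcfix hc3' hcX
  -- all 3-cycles
  have hall : ∀ τ : Equiv.Perm X, τ.IsThreeCycle → ∃ g : G, MulAction.toPermHom G X g = τ ∧
      ∀ w, τ (π w) = π w → g • w = w := by
    intro τ hτ
    obtain ⟨σ, hσ⟩ := isConj_iff.mp (alternatingGroup.isThreeCycle_isConj (α := X)
      (by rw [Nat.card_eq_fintype_card]; exact hX5) (σ := ⟨_, hc3'.mem_alternatingGroup⟩)
      (τ := ⟨τ, hτ.mem_alternatingGroup⟩) hc3' hτ)
    have hσ' : (σ : Equiv.Perm X) * MulAction.toPermHom G X c * (σ : Equiv.Perm X)⁻¹ = τ :=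
      congrArg Subtype.val hσ
    obtain ⟨n, hn⟩ := halt σ.2
    refine ⟨n * c * n⁻¹, ?_, ?_⟩
    · rw [map_mul, map_mul, map_inv, hn, hσ']
    · intro w hw
      rw [← hσ', ← hn] at hw
      have hw' : n • c • n⁻¹ • π w = π w := hw
      have h3 : c • (n⁻¹ • π w) = n⁻¹ • π w := by
        rw [eq_inv_smul_iff]; exact hw'
      obtain ⟨q1, q2, q3⟩ := hcX _ h3
      rw [mul_smul, mul_smul, hcfix (n⁻¹ • w) (by rw [hπ]; exact q1) (by rw [hπ]; exact q2) (by rw [hπ]; exact q3),
        smul_inv_smul]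
  -- the normal subgroup of even elements
  let N : Subgroup G := (alternatingGroup X).comap (MulAction.toPermHom G X)
  have hNn : N.Normal := inferInstance
  have hcN : c ∈ N := hc3'.mem_alternatingGroup
  have hN : N ≠ ⊥ := by
    intro h
    rw [h, Subgroup.mem_bot] at hcN
    rw [hcN, map_one] at hc3'
    have := hc3'.ne_one
    exact this rfl
  obtain ⟨⟨n, hnN⟩, hn⟩ := (hqp N hNn hN).exists_smul_eq ω (u • ω)
  have hn' : n • ω = u • ω := hn
  have hnx : n • π ω = π ω := by rw [← hπ, hn', hπ, hu2]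
  let P : Subgroup (Equiv.Perm X) :=
    { carrier := {σ | ∃ g : G, MulAction.toPermHom G X g = σ ∧ ∀ w, π w = π ω → g • w = w}
      one_mem' := ⟨1, map_one _, fun w _ => one_smul G w⟩
      mul_mem' := by
        rintro σ τ ⟨g, hg, hg'⟩ ⟨g2, hg2, hg2'⟩
        refine ⟨g * g2, by rw [map_mul, hg, hg2], fun w hw => ?_⟩
        rw [mul_smul, hg2' w hw, hg' w hw]
      inv_mem' := by
        rintro σ ⟨g, hg, hg'⟩
        refine ⟨g⁻¹, by rw [map_inv, hg], fun w hw => ?_⟩
        rw [inv_smul_eq_iff, hg' w hw] }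
  have hmem := mem_of_three_cycles (π ω) P (by
    intro τ hτ hτ0
    obtain ⟨g, hg, hg'⟩ := hall τ hτ
    exact ⟨g, hg, fun w hw => hg' w (by rw [hw, hτ0])⟩) (σ := MulAction.toPermHom G X n)
    (Equiv.Perm.mem_alternatingGroup.mp hnN) hnx
  obtain ⟨g, hg, hg'⟩ := hmem
  have hgn : g = n := by
    have : g * n⁻¹ = 1 := by
      apply hfaith
      intro x
      have h3 : MulAction.toPermHom G X (g * n⁻¹) = 1 := by rw [map_mul, map_inv, hg, mul_inv_cancel]
      have h4 := congrArg (fun σ : Equiv.Perm X => σ x) h3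
      exact h4
    rwa [mul_inv_eq_one] at this
  apply hu1
  rw [← hn', ← hgn]
  exact hg' ω rfl

end H63.Marggraf
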