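import Cfsg.Agent.Lib.H63.McLCent
import Cfsg.Prelude.Def_SporadicB

set_option autoImplicit false
set_option linter.all false
set_option maxRecDepth 10000
set_option Elab.async false

/-! The centralizer of an involution of the McLaughlin group is a double cover of the alternating group of degree 8. -/

namespace H63.McLC
open H63.PC H63.OT H63.MTb H63.ZT H35.Net H63.McL

/-- permutations of 8 points -/
abbrev S8 := Equiv.Perm (Fin 8)

/-- letters -/
inductive L2 | a | b

/-- image of the first generator -/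
def pa : S8 := ⟨![0, 1, 2, 6, 4, 7, 3, 5], ![0, 1, 2, 6, 4, 7, 3, 5], by decide, by decide⟩
/-- image of the second generator -/
def pb : S8 := ⟨![5, 0, 4, 1, 6, 2, 3, 7], ![1, 3, 5, 6, 2, 0, 4, 7], by decide, by decide⟩
/-- a fixed point free involution -/
def pc : S8 := ⟨![3, 2, 1, 0, 5, 4, 7, 6], ![3, 2, 1, 0, 5, 4, 7, 6], by decide, by decide⟩

/-- the images -/
def s8 : L2 → S8
  | .a => pa
  | .b => pb

def t8a : ℕ := 0x5003007004006002001000
def t8b : ℕ := 0x7003002006001004000005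
def t8c : ℕ := 0x6007004005000001002003

/-- tables -/
def T8 : L2 → ℕ
  | .a => t8a
  | .b => t8b

theorem r8a : Rp 8 t8a pa := by unfold Rp; decide +kernel
theorem r8b : Rp 8 t8b pb := by unfold Rp; decide +kernel
theorem r8c : Rp 8 t8c pc := by unfold Rp; decide +kernel

theorem r8 (a : L2) : Rp 8 (T8 a) (s8 a) := by
  cases a
  · exact r8a
  · exact r8b

theorem ea : pa ∈ alternatingGroup (Fin 8) := by rw [Equiv.Perm.mem_alternatingGroup]; decide +kernel
theorem eb : pb ∈ alternatingGroup (Fin 8) := by rw [Equiv.Perm.mem_alternatingGroup]; decide +kernel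
theorem ec : pc ∈ alternatingGroup (Fin 8) := by rw [Equiv.Perm.mem_alternatingGroup]; decide +kernel

theorem f8_0 : fixW T8 ([[.b], [.a]]) [] = true := by decide +kernel
theorem c8_0 : Nat.ble 8 (cntM (reachW T8 ([[.b], [.a]]) 8 7 (Nat.shiftLeft 1 0)) 8) = true := by decide +kernel
theorem f8_1 : fixW T8 ([[.b, .b, .a, .b, .b, .b, .b]]) [0] = true := by decide +kernel
theorem c8_1 : Nat.ble 7 (cntM (reachW T8 ([[.b, .b, .a, .b, .b, .b, .b]]) 8 7 (Nat.shiftLeft 1 1)) 8) = true := by decide +kernel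
theorem f8_2 : fixW T8 ([[.b, .b, .b, .b, .a, .b, .b, .b, .a], [.b, .a, .b, .a, .b, .b, .b, .b]]) [1, 0] = true := by decide +kernel
theorem c8_2 : Nat.ble 6 (cntM (reachW T8 ([[.b, .b, .b, .b, .a, .b, .b, .b, .a], [.b, .a, .b, .a, .b, .b, .b, .b]]) 8 6 (Nat.shiftLeft 1 2)) 8) = true := by decide +kernel
theorem f8_3 : fixW T8 ([[.b, .a, .b, .a, .b, .b, .a, .b, .a, .b, .a, .b]]) [2, 1, 0] = true := by decide +kernel
theorem c8_3 : Nat.ble 5 (cntM (reachW T8 ([[.b, .a, .b, .a, .b, .b, .a, .b, .a, .b, .a, .b]]) 8 5 (Nat.shiftLeft 1 3)) 8) = true := by decide +kernel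
theorem f8_4 : fixW T8 ([[.b, .b, .a, .b, .a, .b, .b, .b, .b, .a, .b, .b, .b, .b, .a, .b, .b], [.a, .b, .b, .a, .b, .b, .b, .a, .b, .b, .a, .b, .a]]) [3, 2, 1, 0] = true := by decide +kernel
theorem c8_4 : Nat.ble 4 (cntM (reachW T8 ([[.b, .b, .a, .b, .a, .b, .b, .b, .b, .a, .b, .b, .b, .b, .a, .b, .b], [.a, .b, .b, .a, .b, .b, .b, .a, .b, .b, .a, .b, .a]]) 8 4 (Nat.shiftLeft 1 4)) 8) = true := by decide +kernel
theorem f8_5 : fixW T8 ([[.b, .b, .b, .a, .b, .a, .b, .b, .b, .b, .a, .b, .b, .b, .b, .a, .b, .a]]) [4, 3, 2, 1, 0] = true := by decide +kernel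
theorem c8_5 : Nat.ble 3 (cntM (reachW T8 ([[.b, .b, .b, .a, .b, .a, .b, .b, .b, .b, .a, .b, .b, .b, .b, .a, .b, .a]]) 8 3 (Nat.shiftLeft 1 5)) 8) = true := by decide +kernel

theorem low (K : Subgroup S8) (h : ∀ a, s8 a ∈ K) : 20160 ≤ Nat.card K := by
  have hw : ∀ (ws : List (List L2)), ∀ w ∈ ws, (w.map s8).prod ∈ K := by
    intro ws w _
    apply Subgroup.list_prod_mem
    intro x hx
    obtain ⟨a, -, rfl⟩ := List.mem_map.mp hx
    exact h a
  have h6 : 1 ≤ Nat.card (K ⊓ Fx 8 [5, 4, 3, 2, 1, 0] : Subgroup S8) := Nat.card_pos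
  have h5 := level_low (l := [4, 3, 2, 1, 0]) r8 (hw _) f8_5 (by norm_num) c8_5 h6
  have h4 := level_low (l := [3, 2, 1, 0]) r8 (hw _) f8_4 (by norm_num) c8_4 h5
  have h3 := level_low (l := [2, 1, 0]) r8 (hw _) f8_3 (by norm_num) c8_3 h4
  have h2 := level_low (l := [1, 0]) r8 (hw _) f8_2 (by norm_num) c8_2 h3
  have h1 := level_low (l := [0]) r8 (hw _) f8_1 (by norm_num) c8_1 h2
  have h0 := level_low (l := []) r8 (hw _) f8_0 (by norm_num) c8_0 h1
  have hle : Nat.card (K ⊓ Fx 8 [] : Subgroup S8) ≤ Nat.card K := Subgroup.card_le_of_le inf_le_left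
  calc 20160 ≤ 8 * (7 * (6 * (5 * (4 * (3 * 1))))) := by norm_num
    _ ≤ _ := h0
    _ ≤ _ := hle

/-! ### the action on partitions -/

/-- two points are in the same part -/
noncomputable def RR (p a b : ℕ) : Bool :=
  Nat.beq (bt PT (Nat.add (Nat.mul 8 p) a)) (bt PT (Nat.add (Nat.mul 8 p) b))

/-- equality of Booleans -/
def xn (u v : Bool) : Bool := Bool.rec (motive := fun _ => Bool) (Bool.not v) v u

theorem xn_eq {u v : Bool} : xn u v = true ↔ u = v := by
  cases u <;> cases v <;> simp [xn]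

/-- compatibility -/
def Eq1 (g : G) (σ : S8) : Prop :=
  ∀ p : Fin 275, ψ zG p = p → ∀ a b : Fin 8, RR (ψ g p) (σ a) (σ b) = RR p a b

/-- check of the compatibility -/
noncomputable def chkE (T S : ℕ) : Bool :=
  allN (fun p => Bool.rec (motive := fun _ => Bool) true
    (allN (fun a => allN (fun b => xn (RR (a12 T p) (a12 S a) (a12 S b)) (RR p a b)) 8) 8)
    (Nat.beq (a12 tz p) p)) 275

theorem eq_of {T S : ℕ} {g : G} {σ : S8} (hr : Rp 275 T (ψ g)) (hs : Rp 8 S σ) (hc : chkE T S = true) :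
    Eq1 g σ := by
  intro p hp a b
  have h1 := allN_sound hc p p.2
  have h2 : Nat.beq (a12 tz p) p = true := by
    rw [hzt p, hp]; exact Nat.beq_refl _
  rw [h2] at h1
  have h3 := xn_eq.mp (allN_sound (allN_sound h1 a a.2) b b.2)
  rw [hr p, hs a, hs b] at h3
  exact h3

/-- the word of the second generator -/
def wb : List Lz := [.X, .X, .T, .Y, .X, .T, .y, .X, .X, .t, .X, .X]

/-- the second generator -/
noncomputable def gB2 : G := (wb.map el).prod

set_option maxRecDepth 100000 in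
theorem cw_b : chkWord 275 tb TE wb = true := by decide +kernel

theorem r_b : Rp 275 tb (ψ gB2) := by
  have h := Rp_word re cw_b
  rw [gB2, map_list_prod, List.map_map]
  exact h

theorem r_t : Rp 275 te_t (ψ t) := re .t

/-- the generators -/
noncomputable def gg : L2 → G
  | .a => t
  | .b => gB2

/-- commutation check -/
noncomputable def cmChk (T : ℕ) : Bool := allN (fun i => Nat.beq (a12 T (a12 tz i)) (a12 tz (a12 T i))) 275

set_option maxRecDepth 100000 in
theorem cm_b : cmChk tb = true := by decide +kernel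

theorem cm_of {T : ℕ} {h : G} (hr : Rp 275 T (ψ h)) (hc : cmChk T = true) : h ∈ Cz := by
  rw [Subgroup.mem_centralizer_singleton_iff]
  apply ψ_inj
  rw [map_mul, map_mul]
  ext i
  have h1 := Nat.eq_of_beq_eq_true (allN_sound hc i i.2)
  rw [hzt i, hr, hr i, hzt] at h1
  exact h1

theorem t_mem : t ∈ Cz := by
  rw [Subgroup.mem_centralizer_singleton_iff]
  unfold zG; rw [mul_assoc]

theorem gg_mem (a : L2) : gg a ∈ Cz := by
  cases a
  · exact t_mem
  · exact cm_of r_b cm_b

set_option maxRecDepth 100000 in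
theorem ce_a : chkE te_t t8a = true := by decide +kernel
set_option maxRecDepth 100000 in
theorem ce_b : chkE tb t8b = true := by decide +kernel

theorem gg_eq (a : L2) : Eq1 (gg a) (s8 a) := by
  cases a
  · exact eq_of r_t r8a ce_a
  · exact eq_of r_b r8b ce_b

theorem s8_even (a : L2) : s8 a ∈ alternatingGroup (Fin 8) := by
  cases a
  · exact ea
  · exact eb

/-- faithfulness check -/
noncomputable def QQ (s a b : ℕ) : Bool :=
  allN (fun p => Bool.rec (motive := fun _ => Bool) true (xn (RR p b s) (RR p a 0)) (Nat.beq (a12 tz p) p)) 275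

set_option maxRecDepth 100000 in
theorem qq : ∀ s a b : Fin 8, QQ s a b = true → a = 0 ∨ (b = a ∧ s = 0) ∨ (b = 0 ∧ s = a) := by decide +kernel

theorem faith {σ : S8} (h : Eq1 1 σ) : σ = 1 := by
  have key : ∀ a : Fin 8, a = 0 ∨ (σ a = a ∧ σ 0 = 0) ∨ (σ a = 0 ∧ σ 0 = a) := by
    intro a
    apply qq (σ 0) a (σ a)
    apply allN_complete
    intro p hp
    cases hc : Nat.beq (a12 tz p) p with
    | false => rfl
    | true =>
      have h2 : ψ zG ⟨p, hp⟩ = ⟨p, hp⟩ := by
        apply Fin.ext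
        rw [← hzt ⟨p, hp⟩]
        exact Nat.eq_of_beq_eq_true hc
      have h3 := h ⟨p, hp⟩ h2 a 0
      rw [map_one] at h3
      exact xn_eq.mpr h3
  have h0 : σ 0 = 0 := by
    rcases key 1 with h1 | h1 | h1
    · exact absurd h1 (by decide)
    · exact h1.2
    · rcases key 2 with h2 | h2 | h2
      · exact absurd h2 (by decide)
      · exact h2.2
      · rw [h1.2] at h2
        exact absurd h2.2 (by decide)
  ext a
  rcases key a with h1 | h1 | h1
  · rw [h1, h0]; rfl
  · rw [h1.1]; rfl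
  · rw [h0] at h1
    rw [← h1.2, h0]; rfl

/-! ### the graph -/

/-- the carrier -/
def inK (x : G × S8) : Prop := x.1 ∈ Cz ∧ x.2 ∈ alternatingGroup (Fin 8) ∧ Eq1 x.1 x.2

theorem inK_one : inK 1 := ⟨one_mem _, one_mem _, fun p _ a b => by
  show RR (ψ 1 p) ((1 : S8) a) ((1 : S8) b) = RR p a b
  rw [map_one]
  rfl⟩

theorem inK_mul {x y : G × S8} (hx : inK x) (hy : inK y) : inK (x * y) := by
  refine ⟨mul_mem hx.1 hy.1, mul_mem hx.2.1 hy.2.1, ?_⟩
  intro p hp a b
  have hc := Subgroup.mem_centralizer_singleton_iff.mp hy.1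
  have h1 : ψ zG (ψ y.1 p) = ψ y.1 p := by
    have h2 : ψ (zG * y.1) p = ψ (y.1 * zG) p := by rw [hc]
    rw [map_mul, map_mul] at h2
    have h3 : ψ zG (ψ y.1 p) = ψ y.1 (ψ zG p) := h2
    rw [h3, hp]
  have e1 := hx.2.2 (ψ y.1 p) h1 (y.2 a) (y.2 b)
  have e2 := hy.2.2 p hp a b
  show RR (ψ (x.1 * y.1) p) (x.2 (y.2 a)) (x.2 (y.2 b)) = RR p a b
  rw [map_mul, ← e2, ← e1]
  rfl

theorem inK_pow {x : G × S8} (hx : inK x) (m : ℕ) : inK (x ^ m) := by
  induction m with
  | zero => rw [pow_zero]; exact inK_one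
  | succ m ih => rw [pow_succ]; exact inK_mul ih hx

theorem inK_inv {x : G × S8} (hx : inK x) : inK x⁻¹ := by
  have h1 : x⁻¹ = x ^ (orderOf x - 1) := by
    symm
    apply eq_inv_of_mul_eq_one_right
    rw [← pow_succ']
    have h2 : orderOf x - 1 + 1 = orderOf x := by
      have := orderOf_pos x
      omega
    rw [h2]; exact pow_orderOf_eq_one x
  rw [h1]
  exact inK_pow hx _

/-- the graph -/
def KK : Subgroup (G × S8) where
  carrier := {x | inK x}
  one_mem' := inK_one
  mul_mem' := fun hx hy => inK_mul hx hy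
  inv_mem' := fun hx => inK_inv hx

/-- first projection -/
noncomputable def f1 : KK →* Cz := ((MonoidHom.fst G S8).comp KK.subtype).codRestrict Cz (fun x => x.2.1)

/-- second projection -/
noncomputable def f2 : KK →* alternatingGroup (Fin 8) :=
  ((MonoidHom.snd G S8).comp KK.subtype).codRestrict (alternatingGroup (Fin 8)) (fun x => x.2.2.1)

theorem f1_inj : Function.Injective f1 := by
  rw [injective_iff_map_eq_one]
  rintro ⟨⟨h, σ⟩, hx⟩ h1
  have h2 : h = 1 := congrArg Subtype.val h1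
  subst h2
  have h3 : σ = 1 := faith hx.2.2
  subst h3
  rfl

theorem card_A8 : Nat.card (alternatingGroup (Fin 8)) = 20160 := by
  rw [nat_card_alternatingGroup, Nat.card_fin]
  rfl

theorem f2_surj : Function.Surjective f2 := by
  have hlow : 20160 ≤ Nat.card (KK.map (MonoidHom.snd G S8)) :=
    low _ fun a => ⟨(gg a, s8 a), ⟨gg_mem a, s8_even a, gg_eq a⟩, rfl⟩
  have hle : KK.map (MonoidHom.snd G S8) ≤ alternatingGroup (Fin 8) := by
    rintro _ ⟨x, hx, rfl⟩
    exact hx.2.1
  have heq : KK.map (MonoidHom.snd G S8) = alternatingGroup (Fin 8) :=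
    Subgroup.eq_of_le_of_card_ge hle (by rw [card_A8]; exact hlow)
  rintro ⟨M, hM⟩
  rw [← heq] at hM
  obtain ⟨x, hx, h1⟩ := hM
  exact ⟨⟨x, hx⟩, Subtype.ext h1⟩

/-! ### the involution -/

set_option maxRecDepth 100000 in
theorem e_z2 : eqWord 275 TE [.t, .t, .t, .t] [] = true := by decide +kernel

theorem z_sq : zG * zG = 1 := by
  have h := group_eq ψ_inj re e_z2
  simp only [List.map_cons, List.map_nil, List.prod_cons, List.prod_nil, mul_one, el, elz] at h
  unfold zG
  rw [← h]; group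

set_option maxRecDepth 100000 in
theorem n_z : Nat.beq (a12 tz 0) 0 = false := by decide +kernel

theorem z_ne : zG ≠ 1 := by
  intro h
  have h1 := hzt (0 : Fin 275)
  rw [h, map_one] at h1
  have h2 := n_z
  have h4 : a12 tz 0 = 0 := h1
  rw [h4] at h2
  exact absurd h2 (by decide)

theorem z_ord : orderOf zG = 2 := orderOf_eq_prime (by rw [pow_two]; exact z_sq) z_ne

theorem z_mem : zG ∈ Cz := by rw [Subgroup.mem_centralizer_singleton_iff]

/-- the central involution -/
noncomputable def zC : Cz := ⟨zG, z_mem⟩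

theorem z_K : inK (zG, 1) := ⟨z_mem, one_mem _, fun p hp a b => by
  show RR (ψ zG p) a b = RR p a b
  rw [hp]⟩

/-- the central involution in the graph -/
noncomputable def zK : KK := ⟨(zG, 1), z_K⟩

theorem zK_ker : zK ∈ f2.ker := rfl

theorem zK_ne : zK ≠ 1 := by
  intro h
  exact z_ne (congrArg (fun x : KK => x.1.1) h)

theorem zK_sq : zK * zK = 1 := by
  apply Subtype.ext
  show (zG * zG, (1 : S8) * 1) = 1
  rw [z_sq, mul_one]; rfl

theorem two_dvd : 2 ∣ Nat.card f2.ker := by
  have h1 : orderOf (⟨zK, zK_ker⟩ : f2.ker) = 2 := by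
    apply orderOf_eq_prime
    · rw [pow_two]; exact Subtype.ext zK_sq
    · intro h; exact zK_ne (congrArg Subtype.val h)
  rw [← h1]
  exact orderOf_dvd_natCard _

theorem cards : Nat.card f2.ker = 2 ∧ Nat.card KK = Nat.card Cz := by
  have h1 : Nat.card f2.ker * 20160 = Nat.card KK := by
    rw [← Subgroup.card_mul_index f2.ker, Subgroup.index_ker, MonoidHom.range_eq_top.mpr f2_surj,
      Subgroup.card_top, card_A8]
  obtain ⟨j, hj⟩ := Subgroup.card_dvd_of_injective f1 f1_inj
  have h2 := card_Cz_le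
  have h3 : Nat.card Cz ∣ 898128000 := by
    rw [← card_G]; exact Subgroup.card_subgroup_dvd_card _
  obtain ⟨k, hk⟩ := two_dvd
  have hpos : 0 < Nat.card Cz := Nat.card_pos
  rw [hk] at h1
  rw [← h1] at hj
  rw [hj] at h2 h3 hpos
  have h4 : k * j ≤ 2 := by nlinarith
  have h5 : 0 < k * j := by
    rcases Nat.eq_zero_or_pos (k * j) with h | h
    · rw [show 2 * k * 20160 * j = 40320 * (k * j) by ring, h] at hpos
      exact absurd hpos (by norm_num)
    · exact h
  have h6 : k * j ≠ 2 := by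
    intro h
    rw [show 2 * k * 20160 * j = 40320 * (k * j) by ring, h] at h3
    exact absurd h3 (by norm_num)
  have h7 : k * j = 1 := by omega
  have h8 : k = 1 := Nat.eq_one_of_mul_eq_one_right h7
  have h9 : j = 1 := Nat.eq_one_of_mul_eq_one_left h7
  subst h8 h9
  refine ⟨hk, ?_⟩
  rw [← h1, hj]

/-- the graph is isomorphic to the centralizer -/
noncomputable def e1 : KK ≃* Cz := MulEquiv.ofBijective f1
  ((Nat.bijective_iff_injective_and_card f1).2 ⟨f1_inj, cards.2⟩)

/-- the homomorphism -/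
noncomputable def π8 : Cz →* alternatingGroup (Fin 8) := f2.comp e1.symm.toMonoidHom

theorem π8_surj : Function.Surjective π8 := f2_surj.comp e1.symm.surjective

theorem π8_f1 (x : KK) : π8 (f1 x) = f2 x := by
  show f2 (e1.symm (e1 x)) = f2 x
  rw [e1.symm_apply_apply]

theorem ker_eq {c : Cz} : π8 c = 1 ↔ c = 1 ∨ c = zC := by
  constructor
  · intro h
    obtain ⟨x, rfl⟩ := e1.surjective c
    have h1 : f2 x = 1 := by rw [← π8_f1]; exact h
    have h2 := (Nat.card_eq_two_iff' (1 : f2.ker)).mp cards.1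
    obtain ⟨y, hy, hu⟩ := h2
    by_cases hx : x = 1
    · left; rw [hx, map_one]
    · right
      have e2 : (⟨x, h1⟩ : f2.ker) = y := hu _ (by
        intro h3; exact hx (congrArg Subtype.val h3))
      have e3 : (⟨zK, zK_ker⟩ : f2.ker) = y := hu _ (by
        intro h3; exact zK_ne (congrArg Subtype.val h3))
      have e4 : x = zK := congrArg Subtype.val (e2.trans e3.symm)
      rw [e4]; rfl
  · rintro (rfl | rfl)
    · exact map_one _
    · have h1 : zC = f1 zK := rfl
      rw [h1, π8_f1]; rfl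

theorem zC_central : zC ∈ Subgroup.center Cz := by
  rw [Subgroup.mem_center_iff]
  intro c
  apply Subtype.ext
  have := Subgroup.mem_centralizer_singleton_iff.mp c.2
  exact this

theorem zC_ne : zC ≠ 1 := fun h => z_ne (congrArg Subtype.val h)

theorem center_eq : Subgroup.center Cz = π8.ker := by
  ext c
  rw [MonoidHom.mem_ker]
  constructor
  · intro hc
    have h1 : π8 c ∈ Subgroup.center (alternatingGroup (Fin 8)) := by
      rw [Subgroup.mem_center_iff]
      intro g
      obtain ⟨d, rfl⟩ := π8_surj g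
      rw [← map_mul, ← map_mul, Subgroup.mem_center_iff.mp hc d]
    rw [alternatingGroup.center_eq_bot (by rw [Nat.card_fin]; norm_num)] at h1
    exact h1
  · intro hc
    rcases ker_eq.mp hc with rfl | rfl
    · exact one_mem _
    · exact zC_central

theorem card_center : Nat.card (Subgroup.center Cz) = 2 := by
  rw [Nat.card_eq_two_iff' (1 : Subgroup.center Cz)]
  refine ⟨⟨zC, zC_central⟩, fun h => zC_ne (congrArg Subtype.val h), ?_⟩
  rintro ⟨c, hc⟩ hne
  have h1 : π8 c = 1 := by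
    have h2 := hc
    rw [center_eq] at h2
    exact h2
  rcases ker_eq.mp h1 with rfl | rfl
  · exact absurd rfl hne
  · rfl

theorem nonsplit : Cfsg.IsNonsplitDoubleCover Cz (alternatingGroup (Fin 8)) := by
  refine ⟨card_center, ⟨(QuotientGroup.quotientMulEquivOfEq center_eq).trans
    (QuotientGroup.quotientKerEquivOfSurjective π8 π8_surj)⟩, ?_⟩
  intro L hL
  have h1 := hL.symm
  obtain ⟨⟨⟨l, hl⟩, ⟨w, hw⟩⟩, h2⟩ := h1.2 (⟨t, t_mem⟩ : Cz)
  have h3 : l * w = (⟨t, t_mem⟩ : Cz) := h2
  have hw1 : π8 w = 1 := by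
    have h4 := hw
    rw [center_eq] at h4
    exact h4
  have hww : w * w = 1 := by
    rcases ker_eq.mp hw1 with rfl | rfl
    · rw [mul_one]
    · exact Subtype.ext z_sq
  have h5 : l * l = zC := by
    have h6 : (⟨t, t_mem⟩ : Cz) * ⟨t, t_mem⟩ = zC := rfl
    rw [← h6, ← h3]
    have h7 : l * w * (l * w) = l * l * (w * w) := by
      have h8 := Subgroup.mem_center_iff.mp hw l
      calc l * w * (l * w) = l * (w * l) * w := by group
        _ = l * (l * w) * w := by rw [h8]
        _ = l * l * (w * w) := by group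
    rw [h7, hww, mul_one]
  have h6 : zC ∈ Subgroup.center Cz ⊓ L := ⟨zC_central, by rw [← h5]; exact mul_mem hl hl⟩
  rw [hL.disjoint.eq_bot] at h6
  exact zC_ne h6

end H63.McLC
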