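import Cfsg.Agent.Lib.H63.PrimePermSubset

/-! Permutations of prime order and uniform partitions (helper63). -/

namespace H63.PrimePermPartition

open Equiv Finset H63.PrimePerm H63.PrimePermSubset

/-- `σ` permutes the blocks of some partition into `b` blocks of size `a`. -/
def Fixes (a b : ℕ) (σ : Perm (Fin (a * b))) : Prop :=
  ∃ f : Fin (a * b) → Fin b, (∀ j : Fin b, Nat.card {x : Fin (a * b) // f x = j} = a) ∧
    ∃ π : Equiv.Perm (Fin b), ∀ x : Fin (a * b), f (σ x) = π (f x)

theorem Fixes.exists_count {a b r : ℕ} (hr : r.Prime) (ha : 0 < a) {σ : Perm (Fin (a * b))} (hσ : σ ^ r = 1)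
    (h : Fixes a b σ) : ∃ t, t ≤ b ∧ t ≡ b [MOD r] ∧ t * (a % r) ≤ (fixc σ).card ∧ (fixc σ).card ≤ t * a := by
  obtain ⟨f, hf, π, hπ⟩ := h
  have hsurj : Function.Surjective f := by
    intro j
    have h1 : 0 < Nat.card {x : Fin (a * b) // f x = j} := by rw [hf j]; exact ha
    obtain ⟨⟨x, hx⟩⟩ := (Nat.card_pos_iff.mp h1).1
    exact ⟨x, hx⟩
  have hpow : ∀ n x, f ((σ ^ n) x) = (π ^ n) (f x) := by
    intro n
    induction n with
    | zero => intro x; simp
    | succ n ih =>
      intro x
      rw [pow_succ', Equiv.Perm.mul_apply, hπ, ih, pow_succ', Equiv.Perm.mul_apply]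
  have hπr : π ^ r = 1 := by
    ext j
    obtain ⟨x, rfl⟩ := hsurj j
    rw [← hpow, hσ]
    simp
  have h1 := card_fixc_modEq hr π hπr
  rw [Fintype.card_fin] at h1
  -- count in each fixed fiber
  have hv : ∀ j ∈ fixc π, a % r ≤ ((fixc σ).filter (fun x => f x = j)).card ∧
      ((fixc σ).filter (fun x => f x = j)).card ≤ a := by
    intro j hj
    have hj' : π j = j := mem_fixc.mp hj
    have hinv : ∀ x, f (σ x) = j ↔ f x = j := by
      intro x
      rw [hπ]
      constructor
      · intro h
        exact π.injective (h.trans hj'.symm)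
      · intro h
        rw [h, hj']
    let τ : Perm {x // f x = j} := σ.subtypePerm hinv
    have hτ : τ ^ r = 1 := by
      show (σ.subtypePerm _) ^ r = 1
      rw [Equiv.Perm.subtypePerm_pow]
      ext x
      simp [hσ]
    have h2 := card_fixc_modEq hr τ hτ
    have h3 : Fintype.card {x // f x = j} = a := by
      rw [← Nat.card_eq_fintype_card, hf j]
    rw [h3] at h2
    have h4 : (fixc τ).card = ((fixc σ).filter (fun x => f x = j)).card := by
      have : (fixc σ).filter (fun x => f x = j) = (fixc τ).map ⟨Subtype.val, Subtype.val_injective⟩ := by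
        ext x
        rw [Finset.mem_filter, Finset.mem_map]
        constructor
        · rintro ⟨hx, hxj⟩
          exact ⟨⟨x, hxj⟩, mem_fixc.mpr (Subtype.ext (mem_fixc.mp hx)), rfl⟩
        · rintro ⟨y, hy, rfl⟩
          exact ⟨mem_fixc.mpr (congrArg Subtype.val (mem_fixc.mp hy)), y.2⟩
      rw [this, Finset.card_map]
    rw [h4] at h2
    constructor
    · have h5 : ((fixc σ).filter (fun x => f x = j)).card % r = a % r := h2
      rw [← h5]
      exact Nat.mod_le _ _
    · have h6 := card_fixc_add τ
      rw [h3, h4] at h6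
      omega
  have hmaps : ∀ x ∈ fixc σ, f x ∈ fixc π := by
    intro x hx
    rw [mem_fixc, ← hπ, mem_fixc.mp hx]
  have hsum := Finset.card_eq_sum_card_fiberwise (f := f) (s := fixc σ) (t := fixc π) hmaps
  refine ⟨(fixc π).card, ?_, h1, ?_, ?_⟩
  · have := card_fixc_add π
    rw [Fintype.card_fin] at this
    omega
  · rw [hsum]
    exact (Finset.card_nsmul_le_sum _ _ _ (fun j hj => (hv j hj).1)).trans' (by rw [smul_eq_mul])
  · rw [hsum]
    exact (Finset.sum_le_card_nsmul _ _ _ (fun j hj => (hv j hj).2)).trans (by rw [smul_eq_mul])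

theorem distribute (A : ℕ) : ∀ (t w : ℕ), w ≤ t * A → ∃ g : Fin t → ℕ, (∀ i, g i ≤ A) ∧ ∑ i, g i = w := by
  intro t
  induction t with
  | zero =>
    intro w hw
    exact ⟨fun _ => 0, fun i => i.elim0, by simp at hw ⊢; omega⟩
  | succ t ih =>
    intro w hw
    obtain ⟨g, hg1, hg2⟩ := ih (w - min w A) (by
      rw [Nat.succ_mul] at hw
      rcases le_total w A with h | h
      · rw [min_eq_left h]; omega
      · rw [min_eq_right h]; omega)
    refine ⟨Fin.cons (min w A) g, ?_, ?_⟩
    · intro i
      refine Fin.cases ?_ (fun j => ?_) i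
      · simp
      · simpa using hg1 j
    · rw [Fin.sum_univ_succ]
      simp only [Fin.cons_zero, Fin.cons_succ]
      rw [hg2]
      have := min_le_left w A
      omega

section model

variable (r d a t : ℕ) (u v : Fin t → ℕ)

abbrev X : Type := ((Fin d × Fin a) × ZMod r) ⊕ (((Σ i : Fin t, Fin (u i)) × ZMod r) ⊕ (Σ i : Fin t, Fin (v i)))

abbrev B : Type := (Fin d × ZMod r) ⊕ Fin t

def fm : X r d a t u v → B r d t
  | Sum.inl x => Sum.inl (x.1.1, x.2)
  | Sum.inr (Sum.inl y) => Sum.inr y.1.1
  | Sum.inr (Sum.inr z) => Sum.inr z.1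

def τm : Perm (X r d a t u v) :=
  Equiv.Perm.sumCongr (rot (Fin d × Fin a) r) (Equiv.Perm.sumCongr (rot (Σ i : Fin t, Fin (u i)) r) 1)

def πm : Perm (B r d t) := Equiv.Perm.sumCongr (rot (Fin d) r) 1

theorem fm_τm (x : X r d a t u v) : fm r d a t u v (τm r d a t u v x) = πm r d t (fm r d a t u v x) := by
  rcases x with x | y | z
  · rfl
  · rfl
  · rfl

theorem τm_pow : (τm r d a t u v) ^ r = 1 := by
  unfold τm
  rw [sumCongr_pow, sumCongr_pow, rot_pow, rot_pow, one_pow]
  simp

theorem card_fiber_inl (i : Fin d) (z : ZMod r) :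
    Nat.card {x : X r d a t u v // fm r d a t u v x = Sum.inl (i, z)} = a := by
  have : Nat.card (Fin a) = a := by simp
  refine Eq.trans (Eq.symm ?_) this
  apply Nat.card_eq_of_bijective (fun x : Fin a => (⟨Sum.inl ((i, x), z), rfl⟩ :
    {x : X r d a t u v // fm r d a t u v x = Sum.inl (i, z)}))
  constructor
  · intro x y h
    have h1 := congrArg Subtype.val h
    have h2 := Sum.inl.inj h1
    exact congrArg (fun p => p.1.2) h2
  · rintro ⟨x, hx⟩
    rcases x with ⟨⟨i', x⟩, z'⟩ | y | z'
    · have h1 : ((i', z') : Fin d × ZMod r) = (i, z) := Sum.inl.inj hx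
      have h2 : i' = i := congrArg Prod.fst h1
      have h3 : z' = z := congrArg Prod.snd h1
      subst h2 h3
      exact ⟨x, rfl⟩
    · exact absurd hx (by simp [fm])
    · exact absurd hx (by simp [fm])

theorem card_fiber_inr [NeZero r] (i : Fin t) :
    Nat.card {x : X r d a t u v // fm r d a t u v x = Sum.inr i} = u i * r + v i := by
  have : Nat.card ((Fin (u i) × ZMod r) ⊕ Fin (v i)) = u i * r + v i := by
    simp
  rw [← this]
  symm
  apply Nat.card_eq_of_bijective (fun x : (Fin (u i) × ZMod r) ⊕ Fin (v i) =>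
    (match x with
      | Sum.inl y => ⟨Sum.inr (Sum.inl (⟨i, y.1⟩, y.2)), rfl⟩
      | Sum.inr z => ⟨Sum.inr (Sum.inr ⟨i, z⟩), rfl⟩ :
    {x : X r d a t u v // fm r d a t u v x = Sum.inr i}))
  constructor
  · rintro (⟨x, z⟩ | x) (⟨y, z'⟩ | y) h
    · have h1 := congrArg Subtype.val h
      have h2 := Sum.inl.inj (Sum.inr.inj h1)
      have h3 : (⟨i, x⟩ : Σ i : Fin t, Fin (u i)) = ⟨i, y⟩ := congrArg Prod.fst h2
      have h4 : z = z' := congrArg Prod.snd h2
      have h5 : x = y := eq_of_heq (Sigma.mk.inj h3).2
      rw [h4, h5]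
    · have h1 := congrArg Subtype.val h
      exact absurd (Sum.inr.inj h1) (by simp)
    · have h1 := congrArg Subtype.val h
      exact absurd (Sum.inr.inj h1) (by simp)
    · have h1 := congrArg Subtype.val h
      have h2 := Sum.inr.inj (Sum.inr.inj h1)
      have h5 : x = y := eq_of_heq (Sigma.mk.inj h2).2
      rw [h5]
  · rintro ⟨x, hx⟩
    rcases x with x | ⟨⟨i', y⟩, z⟩ | ⟨i', z⟩
    · exact absurd hx (by simp [fm])
    · have h1 : i' = i := Sum.inr.inj hx
      subst h1
      exact ⟨Sum.inl (y, z), rfl⟩
    · have h1 : i' = i := Sum.inr.inj hx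
      subst h1
      exact ⟨Sum.inr z, rfl⟩

theorem card_X [NeZero r] : Fintype.card (X r d a t u v) = d * a * r + ((∑ i, u i) * r + ∑ i, v i) := by
  simp [X, ZMod.card]

theorem card_fix [NeZero r] (hr : r.Prime) : (fixc (τm r d a t u v)).card = ∑ i, v i := by
  unfold τm
  rw [card_fixc_sumCongr, card_fixc_sumCongr, card_fixc_rot _ hr, card_fixc_rot _ hr, card_fixc_one]
  simp

end model

theorem fixes_of {a b r c t : ℕ} (hr : r.Prime) {σ : Perm (Fin (a * b))} (hσ : σ ^ r = 1)
    (hc : (fixc σ).card + c * r = a * b) (htb : t ≤ b) (htm : t ≡ b [MOD r])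
    (h1 : t * (a % r) ≤ (fixc σ).card) (h2 : (fixc σ).card ≤ t * a) : Fixes a b σ := by
  have : NeZero r := ⟨hr.ne_zero⟩
  obtain ⟨d, hd⟩ : r ∣ b - t := (Nat.modEq_iff_dvd' htb).mp htm
  have hb : b = t + r * d := by omega
  have haA : a = r * (a / r) + a % r := (Nat.div_add_mod a r).symm
  -- F = t ℓ + r w
  have hmod : t * (a % r) ≡ (fixc σ).card [MOD r] := by
    have e1 : t * (a % r) ≡ b * a [MOD r] := Nat.ModEq.mul htm (Nat.mod_modEq a r)
    have e2 : (fixc σ).card ≡ a * b [MOD r] := by
      have e3 : (fixc σ).card ≡ (fixc σ).card + c * r [MOD r] := by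
        show _ % r = _ % r
        rw [Nat.add_mul_mod_self_right]
      exact e3.trans (by rw [hc])
    rw [mul_comm b a] at e1
    exact e1.trans e2.symm
  obtain ⟨w, hw⟩ : r ∣ (fixc σ).card - t * (a % r) := (Nat.modEq_iff_dvd' h1).mp hmod
  have hF : (fixc σ).card = t * (a % r) + r * w := by omega
  have hwle : w ≤ t * (a / r) := by
    have e1 : r * w ≤ r * (t * (a / r)) := by
      have e2 : t * a = t * (r * (a / r)) + t * (a % r) := by rw [← mul_add, ← haA]
      have e3 : t * (r * (a / r)) = r * (t * (a / r)) := by ring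
      omega
    exact Nat.le_of_mul_le_mul_left e1 hr.pos
  obtain ⟨g, hg1, hg2⟩ := distribute (a / r) t w hwle
  let u : Fin t → ℕ := fun i => a / r - g i
  let v : Fin t → ℕ := fun i => a % r + r * g i
  have huv : ∀ i, u i * r + v i = a := by
    intro i
    have := hg1 i
    show (a / r - g i) * r + (a % r + r * g i) = a
    rw [Nat.sub_mul]
    have e1 : g i * r ≤ a / r * r := Nat.mul_le_mul_right r this
    have e2 : r * g i = g i * r := mul_comm _ _
    have e3 := Nat.div_add_mod' a r
    omega
  have hv : ∑ i, v i = (fixc σ).card := by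
    show ∑ i, (a % r + r * g i) = _
    rw [Finset.sum_add_distrib, ← Finset.mul_sum, hg2, hF]
    simp
  have hX : Fintype.card (X r d a t u v) = a * b := by
    rw [card_X]
    have e1 : (∑ i, u i) * r + ∑ i, v i = t * a := by
      rw [Finset.sum_mul, ← Finset.sum_add_distrib, Finset.sum_congr rfl (fun i _ => huv i)]
      simp
    rw [e1, hb]; ring
  have hB : Fintype.card (B r d t) = b := by
    simp only [B, Fintype.card_sum, Fintype.card_prod, Fintype.card_fin, ZMod.card]
    rw [hb]; ring
  obtain ⟨e, he⟩ := exists_equiv (α := Fin (a * b)) (β := X r d a t u v) hr σ (τm r d a t u v) hσ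
    (τm_pow r d a t u v) (by rw [hX, Fintype.card_fin]) (by rw [card_fix r d a t u v hr, hv])
  let eB : B r d t ≃ Fin b := Fintype.equivOfCardEq (by rw [hB, Fintype.card_fin])
  refine ⟨fun x => eB (fm r d a t u v (e.symm x)), ?_, eB.permCongr (πm r d t), ?_⟩
  · intro j
    obtain ⟨j', rfl⟩ := eB.surjective j
    have h3 : Nat.card {x : Fin (a * b) // eB (fm r d a t u v (e.symm x)) = eB j'} =
        Nat.card {x : X r d a t u v // fm r d a t u v x = j'} := by
      apply Nat.card_congr
      exact (e.symm).subtypeEquiv (fun x => by rw [eB.injective.eq_iff])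
    rw [h3]
    rcases j' with ⟨i, z⟩ | i
    · exact card_fiber_inl r d a t u v i z
    · rw [card_fiber_inr, huv]
  · intro x
    obtain ⟨y, rfl⟩ := e.surjective x
    show eB (fm r d a t u v (e.symm (σ (e y)))) = (eB.permCongr (πm r d t)) (eB (fm r d a t u v (e.symm (e y))))
    rw [← he, Equiv.symm_apply_apply, Equiv.symm_apply_apply, fm_τm]
    simp [Equiv.permCongr_apply]

/-- The arithmetic criterion. -/
theorem arith {a b r : ℕ} (ha : 2 ≤ a) (hb : 2 ≤ b) (hr : r.Prime) (hrab : r ≤ a * b) :
    (∀ c, 0 < c → c * r ≤ a * b → ∃ t, t ≤ b ∧ t ≡ b [MOD r] ∧ t * (a % r) ≤ a * b - c * r ∧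
        a * b - c * r ≤ t * a) ↔
      (r ≤ a ∧ (a % r = 0 ∨ (b % r = 0 ∧ a % r = 1) ∨
        (a % r ≠ 0 ∧ b % r ≠ 0 ∧ (b % r) * (a % r) < r ∧ (b < r ∨ (b % r + r) * (a % r) ≤ (b % r) * a + r)))) := by
  have hrpos := hr.pos
  constructor
  · intro h
    have hra : r ≤ a := by
      by_contra hcon
      have hcon' : a < r := not_le.mp hcon
      obtain ⟨t, ht1, ht2, ht3, ht4⟩ := h 1 one_pos (by rw [one_mul]; exact hrab)
      rw [Nat.mod_eq_of_lt hcon'] at ht3
      have hta : t * a = a * b - 1 * r := le_antisymm ht3 ht4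
      obtain ⟨s, hs⟩ : r ∣ b - t := (Nat.modEq_iff_dvd' ht1).mp ht2
      have hbt : b = t + r * s := by omega
      have e1 : r * s * a = r := by
        have : a * b = t * a + r * s * a := by rw [hbt]; ring
        omega
      have e2 : s * a = 1 := by
        have : r * (s * a) = r * 1 := by rw [mul_one, ← mul_assoc]; exact e1
        exact Nat.eq_of_mul_eq_mul_left hrpos this
      have e3 := Nat.eq_one_of_mul_eq_one_left e2
      omega
    refine ⟨hra, ?_⟩
    by_cases hl : a % r = 0
    · exact Or.inl hl
    · right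
      -- the smallest value
      have hN : 0 < a * b / r := Nat.div_pos hrab hrpos
      obtain ⟨t, ht1, ht2, ht3, ht4⟩ := h (a * b / r) hN (Nat.div_mul_le_self _ _)
      have hF0 : a * b - a * b / r * r = ((b % r) * (a % r)) % r := by
        have e1 := Nat.div_add_mod' (a * b) r
        have e2 : a * b % r = ((b % r) * (a % r)) % r := by
          rw [mul_comm a b, Nat.mul_mod]
        omega
      rw [hF0] at ht3
      have hkt : b % r ≤ t := by
        have : t % r = b % r := ht2
        rw [← this]; exact Nat.mod_le _ _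
      have hkl : (b % r) * (a % r) < r := by
        have e1 : (b % r) * (a % r) ≤ t * (a % r) := Nat.mul_le_mul_right _ hkt
        have e2 := Nat.mod_lt ((b % r) * (a % r)) hrpos
        omega
      by_cases hk : b % r = 0
      · left
        refine ⟨hk, ?_⟩
        have hrb : r ∣ b := Nat.dvd_of_mod_eq_zero hk
        obtain ⟨m, hm⟩ := hrb
        have hm1 : 1 ≤ m := by
          rcases Nat.eq_zero_or_pos m with h0 | h0
          · rw [h0] at hm; omega
          · exact h0
        have e0 : a * b = (a * m) * r := by rw [hm]; ring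
        have e1 : 2 ≤ a * m := by nlinarith
        obtain ⟨t', ht1', ht2', ht3', ht4'⟩ := h (a * m - 1) (by omega) (by
          rw [e0]; exact Nat.mul_le_mul_right r (by omega))
        have e2 : a * b - (a * m - 1) * r = r := by
          rw [e0, Nat.sub_mul, one_mul]
          have : r ≤ a * m * r := Nat.le_mul_of_pos_left r (by omega)
          omega
        rw [e2] at ht3' ht4'
        have e3 : t' % r = 0 := by
          have : t' % r = b % r := ht2'
          rw [this, hk]
        have e4 : t' ≠ 0 := by
          rintro rfl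
          rw [zero_mul] at ht4'
          omega
        have e5 : r ≤ t' := Nat.le_of_dvd (Nat.pos_of_ne_zero e4) (Nat.dvd_of_mod_eq_zero e3)
        have e6 : r * (a % r) ≤ r * 1 := by
          rw [mul_one]
          exact (Nat.mul_le_mul_right _ e5).trans ht3'
        have e7 := Nat.le_of_mul_le_mul_left e6 hrpos
        omega
      · right
        refine ⟨hl, hk, hkl, ?_⟩
        by_cases hbr : b < r
        · exact Or.inl hbr
        · right
          have hbdm := Nat.div_add_mod' b r
          have hm1 : 1 ≤ b / r := Nat.div_pos (not_lt.mp hbr) hrpos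
          have e1 : 2 ≤ b / r * a := by nlinarith
          have e0 : a * b = (b / r * a) * r + (b % r) * a := by
            conv_lhs => rw [← hbdm]
            ring
          obtain ⟨t', ht1', ht2', ht3', ht4'⟩ := h (b / r * a - 1) (by omega) (by
            rw [e0, Nat.sub_mul]; omega)
          have e2 : a * b - (b / r * a - 1) * r = (b % r) * a + r := by
            rw [e0, Nat.sub_mul, one_mul]
            have : r ≤ b / r * a * r := Nat.le_mul_of_pos_left r (by omega)
            omega
          rw [e2] at ht3' ht4'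
          have e3 : b % r < t' := by
            by_contra hcon
            have : t' * a ≤ (b % r) * a := Nat.mul_le_mul_right a (not_lt.mp hcon)
            omega
          have e4 : b % r + r ≤ t' := by
            have h5 : t' % r = b % r := ht2'
            have h6 := Nat.div_add_mod' t' r
            have h7 : 1 ≤ t' / r := by
              rcases Nat.eq_zero_or_pos (t' / r) with h0 | h0
              · rw [h0] at h6; omega
              · exact h0
            have h8 : r ≤ t' / r * r := Nat.le_mul_of_pos_left r h7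
            omega
          exact (Nat.mul_le_mul_right _ e4).trans ht3'
  · rintro ⟨hra, h⟩ c hc hcr
    have hmod : (a * b - c * r) % r = ((b % r) * (a % r)) % r := by
      have e1 : (a * b - c * r) + c * r = a * b := Nat.sub_add_cancel hcr
      have e2 : (a * b - c * r) % r = (a * b) % r := by
        conv_rhs => rw [← e1]
        rw [Nat.add_mul_mod_self_right]
      rw [e2, mul_comm a b, Nat.mul_mod]
    rcases h with h | ⟨hk, hl⟩ | ⟨hl, hk, hkl, h⟩
    · exact ⟨b, le_rfl, Nat.ModEq.refl b, by rw [h]; simp, by rw [mul_comm b a]; omega⟩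
    · rw [hk, zero_mul, Nat.zero_mod] at hmod
      rcases le_total (a * b - c * r) b with hcase | hcase
      · refine ⟨a * b - c * r, hcase, ?_, ?_, ?_⟩
        · show _ % r = _ % r
          rw [hmod, hk]
        · rw [hl, mul_one]
        · exact Nat.le_mul_of_pos_right _ (by omega)
      · refine ⟨b, le_rfl, Nat.ModEq.refl b, ?_, ?_⟩
        · rw [hl, mul_one]; exact hcase
        · rw [mul_comm b a]; omega
    · rw [Nat.mod_eq_of_lt hkl] at hmod
      have hFge : (b % r) * (a % r) ≤ a * b - c * r := by
        rw [← hmod]; exact Nat.mod_le _ _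
      -- minimal i with F ≤ (k + r i) a
      have hbdm := Nat.div_add_mod' b r
      have hex : ∃ i, a * b - c * r ≤ (b % r + r * i) * a := by
        refine ⟨b / r, ?_⟩
        have : b % r + r * (b / r) = b := by rw [mul_comm r]; omega
        rw [this, mul_comm b a]; omega
      have hspec := Nat.find_spec hex
      have hile : Nat.find hex ≤ b / r := by
        apply Nat.find_le
        have : b % r + r * (b / r) = b := by rw [mul_comm r]; omega
        rw [this, mul_comm b a]; omega
      refine ⟨b % r + r * Nat.find hex, ?_, ?_, ?_, hspec⟩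
      · have : r * Nat.find hex ≤ r * (b / r) := Nat.mul_le_mul_left r hile
        rw [mul_comm r (b / r)] at this
        omega
      · show _ % r = _ % r
        rw [Nat.add_mul_mod_self_left, Nat.mod_mod]
      · rcases Nat.eq_zero_or_pos (Nat.find hex) with h0 | h0
        · rw [h0, mul_zero, add_zero]
          exact hFge
        · have hbr : ¬ b < r := by
            intro hbr
            rw [Nat.div_eq_of_lt hbr] at hile
            omega
          have hcond := h.resolve_left hbr
          obtain ⟨i, hi⟩ : ∃ i, Nat.find hex = i + 1 := ⟨Nat.find hex - 1, by omega⟩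
          have hmin := Nat.find_min hex (m := i) (by omega)
          rw [hi]
          -- F > (k + r i) a and F ≡ (k + r i) a mod r
          have e1 : (b % r + r * i) * a < a * b - c * r := not_le.mp hmin
          have e2 : ((b % r + r * i) * a) % r = (a * b - c * r) % r := by
            rw [hmod, Nat.mul_mod, Nat.add_mul_mod_self_left, Nat.mod_mod, Nat.mod_eq_of_lt hkl]
          obtain ⟨s, hs⟩ : r ∣ (a * b - c * r) - (b % r + r * i) * a := (Nat.modEq_iff_dvd' e1.le).mp e2
          have e3 : 1 ≤ s := by
            rcases Nat.eq_zero_or_pos s with h0 | h0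
            · rw [h0, mul_zero] at hs; omega
            · exact h0
          have e4 : (b % r + r * i) * a + r ≤ a * b - c * r := by
            have : r ≤ r * s := Nat.le_mul_of_pos_right r e3
            omega
          have e5 : (b % r + r * (i + 1)) * (a % r) ≤ (b % r + r * i) * a + r := by
            have e6 : (b % r + r * (i + 1)) * (a % r) = (b % r + r) * (a % r) + r * i * (a % r) := by ring
            have e7 : (b % r + r * i) * a + r = (b % r) * a + r + r * i * a := by ring
            have e8 : r * i * (a % r) ≤ r * i * a := Nat.mul_le_mul_left _ (Nat.mod_le a r)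
            omega
          omega

end H63.PrimePermPartition
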