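import Cfsg.Agent.Lib.H63.PrimePerm

/-! Permutations of prime order and invariant subsets (helper63). -/

namespace H63.PrimePermSubset

open Equiv Finset H63.PrimePerm

theorem card_fixc_sumCongr {A B : Type*} [Fintype A] [DecidableEq A] [Fintype B] [DecidableEq B]
    (σ : Perm A) (τ : Perm B) :
    (fixc (Equiv.Perm.sumCongr σ τ)).card = (fixc σ).card + (fixc τ).card := by
  have h : fixc (Equiv.Perm.sumCongr σ τ) = (fixc σ).disjSum (fixc τ) := by
    ext x
    rw [mem_fixc]
    rcases x with x | x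
    · rw [Finset.inl_mem_disjSum, mem_fixc]
      simp
    · rw [Finset.inr_mem_disjSum, mem_fixc]
      simp
  rw [h, Finset.card_disjSum]

theorem card_fixc_rot (A : Type*) [Fintype A] [DecidableEq A] {r : ℕ} (hr : r.Prime) [NeZero r] :
    (fixc (rot A r)).card = 0 := by
  rw [Finset.card_eq_zero, Finset.eq_empty_iff_forall_notMem]
  intro x hx
  exact rot_ne A hr x (mem_fixc.mp hx)

theorem card_fixc_one (A : Type*) [Fintype A] [DecidableEq A] : (fixc (1 : Perm A)).card = Fintype.card A := by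
  rw [← Finset.card_univ]
  congr 1
  ext x
  simp [mem_fixc]

theorem image_eq_iff {n : ℕ} {σ : Perm (Fin n)} {s : Finset (Fin n)} (h : s.image σ = s) (x : Fin n) :
    x ∈ s ↔ σ x ∈ s := by
  constructor
  · intro hx
    rw [← h]
    exact mem_image_of_mem σ hx
  · intro hx
    rw [← h] at hx
    obtain ⟨y, hy, hxy⟩ := mem_image.mp hx
    rw [← σ.injective hxy]; exact hy

/-- In a `σ`-invariant set the number of fixed points is congruent to the size. -/
theorem exists_fixed_count {n r : ℕ} (hr : r.Prime) (σ : Perm (Fin n)) (hσ : σ ^ r = 1) (s : Finset (Fin n))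
    (h : s.image σ = s) : ∃ m, m ≤ (fixc σ).card ∧ m ≤ s.card ∧ m ≡ s.card [MOD r] := by
  let τ : Perm {x // x ∈ s} := σ.subtypePerm (fun x => (image_eq_iff h x).symm)
  have hτ : τ ^ r = 1 := by
    show (σ.subtypePerm _) ^ r = 1
    rw [Equiv.Perm.subtypePerm_pow]
    ext x
    simp [hσ]
  have h1 := card_fixc_modEq hr τ hτ
  rw [Fintype.card_coe] at h1
  refine ⟨(fixc τ).card, ?_, ?_, h1⟩
  · have h2 : ((fixc τ).map ⟨Subtype.val, Subtype.val_injective⟩) ⊆ fixc σ := by
      intro y hy
      obtain ⟨x, hx, rfl⟩ := Finset.mem_map.mp hy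
      have hx' : τ x = x := mem_fixc.mp hx
      exact mem_fixc.mpr (congrArg Subtype.val hx')
    have h3 := Finset.card_le_card h2
    rwa [Finset.card_map] at h3
  · have := card_fixc_add τ
    rw [Fintype.card_coe] at this
    omega

/-- Build an invariant set of size `a * r + b`. -/
theorem exists_invariant {n r : ℕ} (hr : r.Prime) (σ : Perm (Fin n)) (hσ : σ ^ r = 1) {c a b : ℕ}
    (hc : (fixc σ).card + c * r = n) (ha : a ≤ c) (hb : b ≤ (fixc σ).card) :
    ∃ s : Finset (Fin n), s.card = a * r + b ∧ s.image σ = s := by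
  have : NeZero r := ⟨hr.ne_zero⟩
  let X := ((Fin a × ZMod r) ⊕ Fin b) ⊕ ((Fin (c - a) × ZMod r) ⊕ Fin ((fixc σ).card - b))
  let τ : Perm X := Equiv.Perm.sumCongr (Equiv.Perm.sumCongr (rot (Fin a) r) 1)
    (Equiv.Perm.sumCongr (rot (Fin (c - a)) r) 1)
  have hτ : τ ^ r = 1 := by
    show (Equiv.Perm.sumCongr _ _) ^ r = 1
    rw [sumCongr_pow, sumCongr_pow, sumCongr_pow, rot_pow, rot_pow, one_pow, one_pow]
    simp
  have hcardX : Fintype.card X = n := by
    simp only [X, Fintype.card_sum, Fintype.card_prod, Fintype.card_fin, ZMod.card]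
    rw [Nat.sub_mul]
    have : a * r ≤ c * r := Nat.mul_le_mul_right r ha
    omega
  have hfix : (fixc τ).card = (fixc σ).card := by
    show (fixc (Equiv.Perm.sumCongr (Equiv.Perm.sumCongr (rot (Fin a) r) 1)
      (Equiv.Perm.sumCongr (rot (Fin (c - a)) r) 1))).card = _
    rw [card_fixc_sumCongr, card_fixc_sumCongr, card_fixc_sumCongr, card_fixc_rot _ hr, card_fixc_rot _ hr,
      card_fixc_one, card_fixc_one, Fintype.card_fin, Fintype.card_fin]
    omega
  obtain ⟨e, he⟩ := exists_equiv (α := Fin n) (β := X) hr σ τ hσ hτ (by rw [hcardX, Fintype.card_fin]) hfix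
  let L : Finset X := (univ : Finset ((Fin a × ZMod r) ⊕ Fin b)).image Sum.inl
  have hL : L.image τ = L := by
    ext x
    simp only [L, mem_image, mem_univ, true_and]
    constructor
    · rintro ⟨_, ⟨y, rfl⟩, rfl⟩
      exact ⟨(Equiv.Perm.sumCongr (rot (Fin a) r) 1) y, rfl⟩
    · rintro ⟨y, rfl⟩
      refine ⟨Sum.inl ((Equiv.Perm.sumCongr (rot (Fin a) r) 1)⁻¹ y), ⟨_, rfl⟩, ?_⟩
      show (Sum.inl ((Equiv.Perm.sumCongr (rot (Fin a) r) 1) ((Equiv.Perm.sumCongr (rot (Fin a) r) 1)⁻¹ y)) : X) = _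
      simp
  refine ⟨L.image e, ?_, ?_⟩
  · rw [Finset.card_image_of_injective _ e.injective, Finset.card_image_of_injective _ Sum.inl_injective,
      Finset.card_univ, Fintype.card_sum, Fintype.card_prod, Fintype.card_fin, ZMod.card, Fintype.card_fin]
  · rw [Finset.image_image]
    have : (⇑σ ∘ ⇑e) = ⇑e ∘ ⇑τ := by
      funext x
      exact (he x).symm
    rw [this, ← Finset.image_image, hL]

/-- Every permutation of prime order `r ≤ n` fixes some `k`-subset iff `k % r ≤ n % r`. -/
theorem forall_fixes_iff {n k r : ℕ} (hr : r.Prime) (hrn : r ≤ n) (hkn : k ≤ n) :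
    (∀ σ : Perm (Fin n), orderOf σ = r → ∃ s : Finset (Fin n), s.card = k ∧ s.image σ = s) ↔
      k % r ≤ n % r := by
  constructor
  · intro h
    have hN : 0 < n / r := Nat.div_pos hrn hr.pos
    obtain ⟨σ, hσ, hf⟩ := exists_orderOf hr hN (Nat.div_mul_le_self n r)
    obtain ⟨s, hs, hsσ⟩ := h σ hσ
    obtain ⟨m, hm1, hm2, hm3⟩ := exists_fixed_count hr σ (orderOf_dvd_iff_pow_eq_one.mp (dvd_of_eq hσ)) s hsσ
    have hf' : (fixc σ).card = n % r := by
      rw [hf]
      have := Nat.div_add_mod' n r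
      omega
    rw [hs] at hm3
    have h1 : m % r = k % r := hm3
    have h2 : m < r := by
      have := Nat.mod_lt n hr.pos
      omega
    rw [Nat.mod_eq_of_lt h2] at h1
    omega
  · intro h σ hσ
    obtain ⟨c, hc0, hc⟩ := exists_card_fixc hr σ hσ
    have hσ' : σ ^ r = 1 := orderOf_dvd_iff_pow_eq_one.mp (dvd_of_eq hσ)
    have hmod : (fixc σ).card % r = n % r := by
      conv_rhs => rw [← hc]
      rw [Nat.add_mul_mod_self_right]
    have hk := Nat.div_add_mod' k r
    rcases le_or_gt (k / r) c with hcase | hcase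
    · obtain ⟨s, hs1, hs2⟩ := exists_invariant hr σ hσ' hc hcase (b := k % r) (by
        have := Nat.mod_le (fixc σ).card r
        omega)
      exact ⟨s, by rw [hs1, hk], hs2⟩
    · have h1 : c * r ≤ k := by
        have : c * r ≤ k / r * r := Nat.mul_le_mul_right r hcase.le
        omega
      obtain ⟨s, hs1, hs2⟩ := exists_invariant hr σ hσ' hc le_rfl (b := k - c * r) (by omega)
      exact ⟨s, by rw [hs1]; omega, hs2⟩

end H63.PrimePermSubset
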