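import Mathlib
import Cfsg.Prelude.Def_Local
import Cfsg.Agent.Lib.H54.RA0
import Cfsg.Agent.Lib.H26.Components

/-! S3330, piece CON (helper63): if `G = EE⟨n⟩` then `F*(G) = A5 × A5` is minimal normal of index 4. -/

set_option autoImplicit false
set_option maxRecDepth 100000

namespace H63.RACon

open Equiv Subgroup H54.RA

/-- the sign of the first entry -/
def sg : EE →* ℤˣ := (Perm.sign (α := Fin 5)).comp ((MonoidHom.fst _ _).comp EE.subtype)

theorem sg_apply (e : EE) : sg e = Perm.sign e.1.1 := rfl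

theorem sg_apply' (e : EE) : sg e = Perm.sign e.1.2 := e.2

/-- the swapped pair -/
def sw (e : EE) : EE := mkE e.1.2 e.1.1 e.2.symm

theorem sg_sw (e : EE) : sg (sw e) = sg e := e.2.symm

/-- pairs of even permutations -/
def io : alternatingGroup (Fin 5) × alternatingGroup (Fin 5) →* EE where
  toFun x := ⟨(x.1.1, x.2.1), (Perm.mem_alternatingGroup.mp x.1.2).trans (Perm.mem_alternatingGroup.mp x.2.2).symm⟩
  map_one' := rfl
  map_mul' _ _ := rfl

theorem io_inj : Function.Injective io := by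
  intro x y h
  have h1 : (io x).1 = (io y).1 := congrArg Subtype.val h
  have h2 : x.1.1 = y.1.1 := congrArg Prod.fst h1
  have h3 : x.2.1 = y.2.1 := congrArg Prod.snd h1
  exact Prod.ext (Subtype.ext h2) (Subtype.ext h3)

theorem io_range : io.range = sg.ker := by
  ext e
  rw [MonoidHom.mem_ker, MonoidHom.mem_range]
  constructor
  · rintro ⟨x, rfl⟩
    exact Perm.mem_alternatingGroup.mp x.1.2
  · intro h
    exact ⟨(⟨e.1.1, Perm.mem_alternatingGroup.mpr h⟩,
      ⟨e.1.2, Perm.mem_alternatingGroup.mpr ((sg_apply' e).symm.trans h)⟩), rfl⟩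

theorem sg_surj : Function.Surjective sg := by
  intro u
  rcases Int.units_eq_one_or u with h | h
  · exact ⟨1, by rw [map_one, h]⟩
  · refine ⟨tE, ?_⟩
    rw [h]
    decide +kernel

theorem sg_index : sg.ker.index = 2 := by
  rw [Subgroup.index_ker, MonoidHom.range_eq_top.mpr sg_surj, Subgroup.card_top]
  simp

/-- `C_{S5}(A5) = 1` -/
theorem cent5 : ∀ a : Perm (Fin 5), a * (swap 0 1 * swap 1 2) = (swap 0 1 * swap 1 2) * a →
    a * (swap 2 3 * swap 3 4) = (swap 2 3 * swap 3 4) * a → a = 1 := by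
  decide +kernel

theorem cent5' {a : Perm (Fin 5)} (h : ∀ c : Perm (Fin 5), Perm.sign c = 1 → a * c = c * a) : a = 1 :=
  cent5 a (h _ (by decide +kernel)) (h _ (by decide +kernel))

/-- `(0 1 2)` -/
def c0 : Perm (Fin 5) := swap 0 1 * swap 1 2

theorem c0_sg : Perm.sign c0 = Perm.sign (1 : Perm (Fin 5)) := by decide +kernel

/-- `((0 1 2), 1)` -/
def e0 : EE := mkE c0 1 c0_sg

theorem e0_sg : sg e0 = 1 := c0_sg.trans (map_one _)

variable {G : Type*} [Group G] {Φ : EE →* G} {n : G}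

theorem n_inv (h : TM Φ n) : n⁻¹ = n := inv_eq_of_mul_eq_one_left h.nn

theorem conj_n (h : TM Φ n) (e : EE) : n * Φ e * n⁻¹ = Φ (sw e) := h.nc e.1.1 e.1.2 e.2

/-- the subgroup -/
def NN (Φ : EE →* G) : Subgroup G := sg.ker.map Φ

theorem mem_NN {e : EE} (he : sg e = 1) : Φ e ∈ NN Φ := ⟨e, he, rfl⟩

theorem eq_or (h : TM Φ n) (hG : ∀ g : G, g ∈ Φ.range ∨ g * n ∈ Φ.range) (g : G) :
    ∃ e, g = Φ e ∨ g = Φ e * n := by
  rcases hG g with ⟨e, he⟩ | ⟨e, he⟩
  · exact ⟨e, Or.inl he.symm⟩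
  · refine ⟨e, Or.inr ?_⟩
    rw [he, mul_assoc, h.nn, mul_one]

theorem normal (h : TM Φ n) (hG : ∀ g : G, g ∈ Φ.range ∨ g * n ∈ Φ.range) : (NN Φ).Normal := by
  constructor
  rintro x ⟨e, he, rfl⟩ g
  have he1 : sg e = 1 := he
  obtain ⟨f, rfl | rfl⟩ := eq_or h hG g
  · rw [← map_inv, ← map_mul, ← map_mul]
    apply mem_NN
    rw [map_mul, map_mul, map_inv, he1, mul_one, mul_inv_cancel]
  · have h1 : Φ f * n * Φ e * (Φ f * n)⁻¹ = Φ (f * sw e * f⁻¹) := by
      rw [mul_inv_rev, map_mul, map_mul, map_inv, ← conj_n h]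
      simp only [mul_assoc]
    rw [h1]
    apply mem_NN
    rw [map_mul, map_mul, map_inv, sg_sw, he1, mul_one, mul_inv_cancel]

theorem index_range (h : TM Φ n) (hG : ∀ g : G, g ∈ Φ.range ∨ g * n ∈ Φ.range) : Φ.range.index = 2 := by
  rw [Subgroup.index_eq_two_iff]
  refine ⟨n, fun b => ?_⟩
  have h1 : ¬ (b * n ∈ Φ.range ∧ b ∈ Φ.range) := by
    rintro ⟨h1, h2⟩
    exact h.nr ((Subgroup.mul_mem_cancel_left _ h2).mp h1)
  rcases hG b with h2 | h2
  · exact Or.inr ⟨h2, fun h3 => h1 ⟨h3, h2⟩⟩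
  · exact Or.inl ⟨h2, fun h3 => h1 ⟨h2, h3⟩⟩

theorem index_NN (h : TM Φ n) (hG : ∀ g : G, g ∈ Φ.range ∨ g * n ∈ Φ.range) : (NN Φ).index = 4 := by
  have h1 : NN Φ ≤ Φ.range := by
    rintro x ⟨e, -, rfl⟩
    exact ⟨e, rfl⟩
  rw [← Subgroup.relIndex_mul_index h1, index_range h hG]
  have h2 : (NN Φ).relIndex Φ.range = 2 := by
    have h3 := Subgroup.relIndex_map_map_of_injective sg.ker ⊤ h.inj
    rw [← MonoidHom.range_eq_map, Subgroup.relIndex_top_right, sg_index] at h3
    exact h3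
  rw [h2]

theorem sq_mem (h : TM Φ n) (hG : ∀ g : G, g ∈ Φ.range ∨ g * n ∈ Φ.range) (g : G) : g ^ 2 ∈ NN Φ := by
  obtain ⟨f, rfl | rfl⟩ := eq_or h hG g
  · rw [pow_two, ← map_mul]
    apply mem_NN
    rw [map_mul, Int.units_mul_self]
  · have h1 : (Φ f * n) ^ 2 = Φ (f * sw f) := by
      rw [map_mul, ← conj_n h, n_inv h, pow_two]
      simp only [mul_assoc]
    rw [h1]
    apply mem_NN
    rw [map_mul, sg_sw, Int.units_mul_self]

theorem cent_bot (h : TM Φ n) (hG : ∀ g : G, g ∈ Φ.range ∨ g * n ∈ Φ.range) :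
    centralizer (NN Φ : Set G) = ⊥ := by
  rw [eq_bot_iff]
  intro g hg
  rw [Subgroup.mem_centralizer_iff] at hg
  rw [Subgroup.mem_bot]
  obtain ⟨f, rfl | rfl⟩ := eq_or h hG g
  · have h1 : ∀ e : EE, sg e = 1 → e * f = f * e := by
      intro e he
      apply h.inj
      rw [map_mul, map_mul]
      exact hg _ (mem_NN he)
    have ha : f.1.1 = 1 := by
      apply cent5'
      intro c hc
      exact (congrArg (fun x : EE => x.1.1) (h1 (mkE c 1 (by rw [hc, map_one])) hc)).symm
    have hb : f.1.2 = 1 := by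
      apply cent5'
      intro c hc
      have hs : sg (mkE 1 c (by rw [hc, map_one])) = 1 := map_one (Perm.sign (α := Fin 5))
      exact (congrArg (fun x : EE => x.1.2) (h1 (mkE 1 c (by rw [hc, map_one])) hs)).symm
    have hf : f = 1 := Subtype.ext (Prod.ext ha hb)
    rw [hf, map_one]
  · exfalso
    have h1 := hg _ (mem_NN e0_sg)
    have h2 : Φ e0 = Φ (f * sw e0 * f⁻¹) := by
      rw [map_mul, map_mul, map_inv, ← conj_n h, eq_mul_inv_iff_mul_eq, n_inv h]
      have h3 := congrArg (fun x => x * n) h1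
      simp only [mul_assoc, h.nn, mul_one] at h3
      simpa only [mul_assoc] using h3
    have h3 := congrArg (fun x : EE => x.1.1) (h.inj h2)
    have h4 : c0 = f.1.1 * 1 * (f.1.1)⁻¹ := h3
    rw [mul_one, mul_inv_cancel] at h4
    exact absurd h4 (by decide +kernel)

/-- the embedding of `A5 × A5` -/
def th (Φ : EE →* G) : alternatingGroup (Fin 5) × alternatingGroup (Fin 5) →* G := Φ.comp io

theorem th_inj (h : TM Φ n) : Function.Injective (th Φ) := h.inj.comp io_inj

theorem th_range : (th Φ).range = NN Φ := by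
  unfold th NN
  rw [← io_range, MonoidHom.range_comp]

theorem conj_th (h : TM Φ n) (a b : alternatingGroup (Fin 5)) : n * th Φ (a, b) * n⁻¹ = th Φ (b, a) :=
  conj_n h _

theorem th_mem (x) : th Φ x ∈ NN Φ := by
  rw [← th_range]
  exact ⟨x, rfl⟩

instance : IsSimpleGroup (alternatingGroup (Fin 5)) := alternatingGroup.isSimpleGroup_five

/-- a normal subgroup containing some `(a, b)`, `a ≠ 1` -/
theorem all_of (h : TM Φ n) {K : Subgroup G} (hK : K.Normal) {a b : alternatingGroup (Fin 5)}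
    (hab : th Φ (a, b) ∈ K) (ha : a ≠ 1) : NN Φ ≤ K := by
  -- a commutator
  obtain ⟨c, hc⟩ : ∃ c : alternatingGroup (Fin 5), a * c ≠ c * a := by
    by_contra hcon
    push Not at hcon
    apply ha
    apply Subtype.ext
    apply cent5'
    intro c hc
    exact congrArg Subtype.val (hcon ⟨c, Perm.mem_alternatingGroup.mpr hc⟩)
  have h1 : th Φ (a * c * a⁻¹ * c⁻¹, 1) ∈ K := by
    have h2 : th Φ (a * c * a⁻¹ * c⁻¹, 1) =
        th Φ (a, b) * (th Φ (c, 1) * (th Φ (a, b))⁻¹ * (th Φ (c, 1))⁻¹) := by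
      rw [← map_inv, ← map_inv, ← map_mul, ← map_mul, ← map_mul]
      congr 1
      ext1
      · simp [mul_assoc]
      · simp
    rw [h2]
    exact K.mul_mem hab (hK.conj_mem _ (K.inv_mem hab) _)
  have h3 : ∀ x : alternatingGroup (Fin 5), th Φ (x, 1) ∈ K := by
    have h4 : (K.comap ((th Φ).comp (MonoidHom.inl _ _))).Normal := hK.comap _
    rcases h4.eq_bot_or_eq_top with h5 | h5
    · exfalso
      have h6 : a * c * a⁻¹ * c⁻¹ ∈ K.comap ((th Φ).comp (MonoidHom.inl _ _)) := h1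
      rw [h5, Subgroup.mem_bot, mul_inv_eq_one, mul_inv_eq_iff_eq_mul] at h6
      exact hc h6
    · intro x
      have h6 : x ∈ K.comap ((th Φ).comp (MonoidHom.inl _ _)) := by
        rw [h5]
        exact Subgroup.mem_top _
      exact h6
  have h4 : ∀ x : alternatingGroup (Fin 5), th Φ (1, x) ∈ K := by
    intro x
    rw [← conj_th h x 1]
    exact hK.conj_mem _ (h3 x) _
  rw [← th_range]
  rintro _ ⟨⟨x, y⟩, rfl⟩
  have h5 : (x, y) = (x, 1) * ((1, y) : alternatingGroup (Fin 5) × alternatingGroup (Fin 5)) := by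
    simp
  rw [h5, map_mul]
  exact K.mul_mem (h3 x) (h4 y)

theorem minimal (h : TM Φ n) {K : Subgroup G} (hK : K.Normal) (hKN : K ≤ NN Φ) : K = ⊥ ∨ K = NN Φ := by
  by_cases hb : K = ⊥
  · exact Or.inl hb
  · right
    apply le_antisymm hKN
    obtain ⟨g, hg, hg1⟩ : ∃ g ∈ K, g ≠ 1 := by
      by_contra hcon
      push Not at hcon
      exact hb ((Subgroup.eq_bot_iff_forall K).mpr hcon)
    have h1 := hKN hg
    rw [← th_range] at h1
    obtain ⟨⟨a, b⟩, rfl⟩ := h1
    by_cases ha : a = 1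
    · by_cases hb1 : b = 1
      · exfalso
        apply hg1
        rw [ha, hb1]
        exact map_one _
      · refine all_of h hK (a := b) (b := a) ?_ hb1
        rw [← conj_th h a b]
        exact hK.conj_mem _ hg _
    · exact all_of h hK hg ha

theorem quasi : Cfsg.IsQuasisimple (alternatingGroup (Fin 5)) := by
  apply H26.Quasisimple.of_forall_normal
  · intro N hN
    rcases hN.eq_bot_or_eq_top with h1 | h1
    · right
      rw [h1]
      exact bot_le
    · exact Or.inl h1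
  · intro hnil
    have hsol : Group.IsSolvable (alternatingGroup (Fin 5)) := inferInstance
    have hcomm := IsSimpleGroup.comm_iff_isSolvable.mpr hsol
    have h3 : c0 = 1 := by
      apply cent5'
      intro c hc
      exact congrArg Subtype.val (hcomm ⟨c0, Perm.mem_alternatingGroup.mpr (c0_sg.trans (map_one _))⟩
        ⟨c, Perm.mem_alternatingGroup.mpr hc⟩)
    exact absurd h3 (by decide +kernel)

/-- the two components -/
theorem comp1 (h : TM Φ n) (hG : ∀ g : G, g ∈ Φ.range ∨ g * n ∈ Φ.range)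
    (i : alternatingGroup (Fin 5) →* alternatingGroup (Fin 5) × alternatingGroup (Fin 5))
    (hi : Function.Injective i) (hn : i.range.Normal) :
    Cfsg.IsComponent ((th Φ).comp i).range := by
  have hNn := normal h hG
  have hle : ((th Φ).comp i).range ≤ NN Φ := by
    rintro _ ⟨x, rfl⟩
    exact th_mem _
  refine ⟨?_, ?_⟩
  · refine Subgroup.IsSubnormal.step _ _ hle hNn.isSubnormal ?_
    constructor
    rintro ⟨x, hx⟩ hx1 ⟨g, hg⟩
    rw [Subgroup.mem_subgroupOf] at hx1 ⊢
    obtain ⟨y, hy⟩ := hx1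
    rw [← th_range] at hg
    obtain ⟨z, hz⟩ := hg
    obtain ⟨w, hw⟩ := hn.conj_mem (i y) ⟨y, rfl⟩ z
    refine ⟨w, ?_⟩
    change th Φ (i w) = g * x * g⁻¹
    rw [hw, map_mul, map_mul, map_inv, hz]
    congr 2
  · exact (H26.Quasisimple.mulEquiv_iff (MonoidHom.ofInjective (f := (th Φ).comp i)
      ((th_inj h).comp hi))).mp quasi

theorem gfit [Finite G] (h : TM Φ n) (hG : ∀ g : G, g ∈ Φ.range ∨ g * n ∈ Φ.range) :
    Cfsg.generalizedFittingSubgroup G = NN Φ := by
  have hNn := normal h hG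
  have hlay : NN Φ ≤ Cfsg.layer G := by
    rw [← th_range]
    have h1 := H26.Components.le_layer (comp1 h hG (MonoidHom.inl _ _) (fun a b hab => congrArg Prod.fst hab) ?_)
    have h2 := H26.Components.le_layer (comp1 h hG (MonoidHom.inr _ _) (fun a b hab => congrArg Prod.snd hab) ?_)
    · rintro _ ⟨⟨x, y⟩, rfl⟩
      have h5 : (x, y) = (x, 1) * ((1, y) : alternatingGroup (Fin 5) × alternatingGroup (Fin 5)) := by
        simp
      rw [h5, map_mul]
      exact (Cfsg.layer G).mul_mem (h1 ⟨x, rfl⟩) (h2 ⟨y, rfl⟩)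
    · constructor
      rintro _ ⟨y, rfl⟩ ⟨u, v⟩
      exact ⟨v * y * v⁻¹, by ext1 <;> simp⟩
    · constructor
      rintro _ ⟨y, rfl⟩ ⟨u, v⟩
      exact ⟨u * y * u⁻¹, by ext1 <;> simp⟩
  apply le_antisymm
  · apply sup_le
    · apply sSup_le
      intro L hL
      rcases H26.Components.le_or_commutator_eq_bot_of_normal hL (H := NN Φ) with h1 | h1
      · exact h1
      · exfalso
        rw [Subgroup.commutator_eq_bot_iff_le_centralizer, cent_bot h hG, le_bot_iff] at h1
        exact H26.Components.ne_bot hL h1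
    · have h1 : ⁅Cfsg.fittingSubgroup G, Cfsg.layer G⁆ = ⊥ := by
        rw [Subgroup.commutator_comm]
        exact H26.Components.commutator_layer_fittingSubgroup
      rw [Subgroup.commutator_eq_bot_iff_le_centralizer] at h1
      have h2 : centralizer (Cfsg.layer G : Set G) ≤ centralizer (NN Φ : Set G) :=
        Subgroup.centralizer_le hlay
      rw [cent_bot h hG] at h2
      exact (h1.trans h2).trans bot_le
  · exact hlay.trans le_sup_left

/-- **CON** -/
theorem con {G : Type*} [Group G] [Finite G] {Φ : EE →* G} {n : G} (h : TM Φ n) (hG : ∀ g : G, g ∈ Φ.range ∨ g * n ∈ Φ.range) : ∃ N : Subgroup G, N.Normal ∧ Cfsg.generalizedFittingSubgroup G = N ∧ Nonempty (N ≃* alternatingGroup (Fin 5) × alternatingGroup (Fin 5)) ∧ (∀ K : Subgroup G, K.Normal → K ≤ N → K = ⊥ ∨ K = N) ∧ N.index = 4 ∧ ∀ g : G, g ^ 2 ∈ N := by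
  refine ⟨NN Φ, normal h hG, gfit h hG, ⟨?_⟩, fun K hK hKN => minimal h hK hKN, index_NN h hG, sq_mem h hG⟩
  rw [← th_range]
  exact (MonoidHom.ofInjective (th_inj h)).symm

end H63.RACon
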