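import Cfsg.Agent.Lib.H63.MTab

set_option autoImplicit false
set_option linter.all false

/-! Upper bounds for the order of the centralizer of a permutation in the automorphism group of a relation. -/

namespace H63.ZT

open H63.PC H63.OT H63.MTb H35.Net

variable {n : ℕ}

/-- automorphisms commuting with `ζ` and fixing the points of a list -/
def FZ (M : ℕ → ℕ) (ζ : Equiv.Perm (Fin n)) (l : List ℕ) : Subgroup (Equiv.Perm (Fin n)) where
  carrier := {σ | Pres M σ ∧ σ * ζ = ζ * σ ∧ ∀ b : Fin n, (b : ℕ) ∈ l → σ b = b}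
  one_mem' := ⟨Pres.one M, by rw [one_mul, mul_one], fun _ _ => rfl⟩
  mul_mem' := fun {σ τ} h1 h2 => ⟨h1.1.mul h2.1, by
      rw [mul_assoc, h2.2.1, ← mul_assoc, h1.2.1, mul_assoc], fun b hb => by
    rw [Equiv.Perm.mul_apply, h2.2.2 b hb, h1.2.2 b hb]⟩
  inv_mem' := fun {σ} h => ⟨h.1.inv, by
      rw [inv_mul_eq_iff_eq_mul, ← mul_assoc, h.2.1, mul_inv_cancel_right], fun b hb => by
    rw [Equiv.Perm.inv_eq_iff_eq, h.2.2 b hb]⟩

theorem fz_fixG {M : ℕ → ℕ} {ζ : Equiv.Perm (Fin n)} {l : List ℕ} {σ : Equiv.Perm (Fin n)} (h : σ ∈ FZ M ζ l) :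
    σ ∈ FixG M n l := ⟨h.1, h.2.2⟩

theorem fz_apply {M : ℕ → ℕ} {ζ : Equiv.Perm (Fin n)} {l : List ℕ} {σ : Equiv.Perm (Fin n)} (h : σ ∈ FZ M ζ l)
    (p : Fin n) : ζ (σ p) = σ (ζ p) := congrArg (fun τ : Equiv.Perm (Fin n) => τ p) h.2.1.symm

/-- the colour -/
noncomputable def cz (M : ℕ → ℕ) (Tz : ℕ) (l : List ℕ) (p : ℕ) : ℕ :=
  List.rec (motive := fun _ => ℕ) (Nat.add (Bool.rec (motive := fun _ => ℕ) 0 1 (Nat.beq (a12 Tz p) p))
      (Nat.mul 2 (bt (M p) (a12 Tz p))))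
    (fun b _ ih => Nat.add (Nat.mul 5 ih)
      (Bool.rec (motive := fun _ => ℕ) (Nat.add (bt (M b) p) (Nat.mul 2 (bt (M p) b))) 4 (Nat.beq p b))) l

theorem beq_congr {a b c d : ℕ} (h : a = b ↔ c = d) : Nat.beq a b = Nat.beq c d := by
  cases hc : Nat.beq a b with
  | true => rw [h.mp (Nat.eq_of_beq_eq_true hc), Nat.beq_refl]
  | false =>
    cases hd : Nat.beq c d with
    | false => rfl
    | true =>
      rw [h.mpr (Nat.eq_of_beq_eq_true hd), Nat.beq_refl] at hc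
      exact absurd hc (by decide)

variable {M : ℕ → ℕ} {ζ : Equiv.Perm (Fin n)} {Tz : ℕ}

theorem cz_inv (hz : Rp n Tz ζ) {l : List ℕ} (hl : ∀ b ∈ l, b < n) {σ : Equiv.Perm (Fin n)} (h : σ ∈ FZ M ζ l)
    (p : Fin n) : cz M Tz l (σ p) = cz M Tz l p := by
  have key : ∀ l' : List ℕ, (∀ b ∈ l', b ∈ l) → cz M Tz l' (σ p) = cz M Tz l' p := by
    intro l'
    induction l' with
    | nil =>
      intro _
      have e1 : Nat.beq (a12 Tz (σ p)) (σ p) = Nat.beq (a12 Tz p) p := by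
        apply beq_congr
        rw [hz, hz, fz_apply h]
        constructor
        · intro h1; exact congrArg Fin.val (σ.injective (Fin.ext h1))
        · intro h1; exact congrArg (fun q : Fin n => (σ q : ℕ)) (Fin.ext h1)
      have e2 : bt (M (σ p)) (a12 Tz (σ p)) = bt (M p) (a12 Tz p) := by
        rw [bt_eq_iff, hz, hz, fz_apply h]
        exact h.1 p (ζ p)
      change Nat.add (Bool.rec (motive := fun _ => ℕ) 0 1 (Nat.beq (a12 Tz (σ p)) (σ p)))
        (Nat.mul 2 (bt (M (σ p)) (a12 Tz (σ p)))) = Nat.add (Bool.rec (motive := fun _ => ℕ) 0 1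
          (Nat.beq (a12 Tz p) p)) (Nat.mul 2 (bt (M p) (a12 Tz p)))
      rw [e1, e2]
    | cons b l' ih =>
      intro h'
      have hb := h' b (by simp)
      have ih' := ih (fun c hc => h' c (by simp [hc]))
      have hfix := h.2.2 ⟨b, hl b hb⟩ hb
      have e1 : bt (M b) (σ p) = bt (M b) p := bt_eq_iff.mpr (FixG.bit (fz_fixG h) hb (hl b hb) p)
      have e3 : bt (M (σ p)) b = bt (M p) b := by
        rw [bt_eq_iff]
        have h1 := h.1 p ⟨b, hl b hb⟩
        rw [hfix] at h1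
        exact h1
      have e2 : Nat.beq (σ p) b = Nat.beq p b := by
        apply beq_congr
        constructor
        · intro h3
          have h4 : σ p = ⟨b, hl b hb⟩ := Fin.ext h3
          rw [← hfix] at h4
          exact congrArg Fin.val (σ.injective h4)
        · intro h3
          have h4 : p = ⟨b, hl b hb⟩ := Fin.ext h3
          rw [h4, hfix]
      change Nat.add (Nat.mul 5 (cz M Tz l' (σ p))) (Bool.rec (motive := fun _ => ℕ)
          (Nat.add (bt (M b) (σ p)) (Nat.mul 2 (bt (M (σ p)) b))) 4 (Nat.beq (σ p) b)) =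
        Nat.add (Nat.mul 5 (cz M Tz l' p)) (Bool.rec (motive := fun _ => ℕ)
          (Nat.add (bt (M b) p) (Nat.mul 2 (bt (M p) b))) 4 (Nat.beq p b))
      rw [ih', e1, e2, e3]
  exact key l (fun _ h => h)

/-- orbits are contained in classes -/
theorem cellB {H : Subgroup (Equiv.Perm (Fin n))} {b : Fin n} {g : ℕ → Bool}
    (hg : ∀ σ ∈ H, g (σ b) = true) {c : ℕ} (hc : cntA g n 0 = c) :
    {q : Fin n | ∃ σ ∈ H, σ b = q}.ncard ≤ c := by
  classical
  have h1 : {q : Fin n | ∃ σ ∈ H, σ b = q} ⊆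
      ((Finset.univ.filter fun q : Fin n => g q = true : Finset (Fin n)) : Set (Fin n)) := by
    rintro q ⟨σ, hσ, rfl⟩
    simp only [Finset.coe_filter, Finset.mem_univ, true_and, Set.mem_setOf_eq]
    exact hg σ hσ
  refine (Set.ncard_le_ncard h1 (Finset.finite_toSet _)).trans ?_
  rw [Set.ncard_coe_finset, ← hc, cntA_spec, zero_add, Finset.card_filter,
    Finset.sum_range (fun i => if (g i) = true then 1 else 0)]

theorem stepG {l : List ℕ} {g : ℕ → Bool} {b c m : ℕ} (hb : b < n)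
    (hg : ∀ σ ∈ FZ M ζ l, g (σ ⟨b, hb⟩) = true) (hc : cntA g n 0 = c)
    (hm : Nat.card (FZ M ζ (b :: l)) ≤ m) : Nat.card (FZ M ζ l) ≤ c * m := by
  refine (card_le_of (K := FZ M ζ (b :: l)) (b := ⟨b, hb⟩) (cellB hg hc) ?_).trans (Nat.mul_le_mul_left _ hm)
  intro σ hσ hs
  refine ⟨hσ.1, hσ.2.1, fun b' hb' => ?_⟩
  rcases List.mem_cons.mp hb' with h | h
  · have : b' = ⟨b, hb⟩ := Fin.ext h
    rw [this]; exact hs
  · exact hσ.2.2 b' h

/-- level with the colour -/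
theorem stepA (hz : Rp n Tz ζ) {l : List ℕ} (hl : ∀ b ∈ l, b < n) {b c m : ℕ} (hb : b < n)
    (hc : cntA (fun p => Nat.beq (cz M Tz l p) (cz M Tz l b)) n 0 = c)
    (hm : Nat.card (FZ M ζ (b :: l)) ≤ m) : Nat.card (FZ M ζ l) ≤ c * m := by
  refine stepG hb (g := fun p => Nat.beq (cz M Tz l p) (cz M Tz l b)) ?_ hc hm
  intro σ hσ
  show Nat.beq (cz M Tz l (σ ⟨b, hb⟩)) (cz M Tz l b) = true
  rw [cz_inv hz hl hσ]
  exact Nat.beq_refl _

/-- predicate of the second kind of level -/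
noncomputable def gB (M : ℕ → ℕ) (Tz : ℕ) (l : List ℕ) (n b W p : ℕ) : Bool :=
  band (Nat.beq (cz M Tz l p) (cz M Tz l b))
    (Nat.beq (cntM (Nat.land (M p) W) n) (cntM (Nat.land (M b) W) n))

/-- level with the number of neighbours in a class -/
theorem stepB (hz : Rp n Tz ζ) {l : List ℕ} (hl : ∀ b ∈ l, b < n) {b c m s W : ℕ} (hb : b < n)
    (hW : Nat.beq (mkMask (cz M Tz l) (cz M Tz l s) n) W = true)
    (hc : cntA (gB M Tz l n b W) n 0 = c)
    (hm : Nat.card (FZ M ζ (b :: l)) ≤ m) : Nat.card (FZ M ζ l) ≤ c * m := by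
  refine stepG hb (g := gB M Tz l n b W) ?_ hc hm
  intro σ hσ
  have hW' := Nat.eq_of_beq_eq_true hW
  have hS : ∀ p : Fin n, W.testBit (σ p) = W.testBit p := by
    intro q
    rw [← hW']
    apply Bool.eq_iff_iff.mpr
    rw [mkMask_spec, mkMask_spec, cz_inv hz hl hσ q]
    exact ⟨fun h => ⟨q.2, h.2⟩, fun h => ⟨(σ q).2, h.2⟩⟩
  rw [gB, band_iff]
  constructor
  · rw [cz_inv hz hl hσ]
    exact Nat.beq_refl _
  · rw [cntM_inv hσ.1 hS]
    exact Nat.beq_refl _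

/-- the image under `ζ` of a fixed point is fixed -/
theorem addz (hz : Rp n Tz ζ) {l : List ℕ} {b b' m : ℕ} (hb : b ∈ l) (hbn : b < n)
    (h : Nat.beq (a12 Tz b) b' = true) (hm : Nat.card (FZ M ζ (b' :: l)) ≤ m) : Nat.card (FZ M ζ l) ≤ m := by
  have hle : FZ M ζ l ≤ FZ M ζ (b' :: l) := by
    intro σ hσ
    refine ⟨hσ.1, hσ.2.1, fun c hc => ?_⟩
    rcases List.mem_cons.mp hc with h1 | h1
    · have h2 : c = ζ ⟨b, hbn⟩ := by
        apply Fin.ext
        rw [h1, ← Nat.eq_of_beq_eq_true h]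
        exact hz ⟨b, hbn⟩
      rw [h2, ← fz_apply hσ, hσ.2.2 ⟨b, hbn⟩ hb]
    · exact hσ.2.2 c h1
  exact (Subgroup.card_le_of_le hle).trans hm

/-- the end of the chain -/
theorem fin1 {l : List ℕ} {F : ℕ} (hF : F = 2 ^ n - 1) (hl : ∀ b ∈ l, b < n)
    (hc : isoChk M F l n = true) : Nat.card (FZ M ζ l) ≤ 1 := by
  have h1 : FZ M ζ l = ⊥ := by
    rw [eq_bot_iff]
    intro σ hσ
    rw [Subgroup.mem_bot]
    exact eq_one hF hl hc (fz_fixG hσ)
  rw [h1, Subgroup.card_bot]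

end H63.ZT
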